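import Mathlib
import Cfsg.Agent.H365.TorEight

/-!
# Sylow subgroups of `PSp(2n,q)`, `PΩ(2n+1,q)`: bounds; other characteristics, `n ≥ 16` (helper365)
-/

set_option autoImplicit false

namespace Cfsg.Agent.H365.CS

open Finset Cfsg Cfsg.Agent.H902.Art Cfsg.Agent.H902.Lte Cfsg.Agent.H364.SpVal Cfsg.Agent.H365.TorSp

variable {n q p f M κ M' i : ℕ}

/-! ### parts of the order -/

theorem ndvd_q (hY : Real (.C n) p f M) {v : ℕ} (hv : v.Prime) (hvp : v ≠ p) : ¬ v ∣ p ^ f := fun h =>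
  hvp ((Nat.prime_dvd_prime_iff_eq hv hY.hp).1 (hv.dvd_of_dvd_pow h))

/-- the part of `dd · M` -/
theorem P_dd_mul (hY : Real (.C n) p f M) {v : ℕ} (hv : v.Prime) (hvp : v ≠ p) :
    P v (dd (.C n) (p ^ f)) * P v M = P v (AA n (p ^ f)) := by
  have hq := hY.q_ge
  have h4 : ¬ v ∣ (p ^ f) ^ NN (.C n) := fun h => ndvd_q hY hv hvp (hv.dvd_of_dvd_pow h)
  rw [← P_mul hY.dd_ne hY.M_ne, hY.eq]
  show P v ((p ^ f) ^ NN (.C n) * AA n (p ^ f)) = P v (AA n (p ^ f))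
  rw [P_mul (pow_ne_zero _ (by omega)) (AA_ne hq), P_eq_one h4, one_mul]

theorem P_card_le (hY : Real (.C n) p f M) {v : ℕ} (hv : v.Prime) (hvp : v ≠ p) : P v M ≤ P v (AA n (p ^ f)) := by
  rw [← P_dd_mul hY hv hvp]
  exact Nat.le_mul_of_pos_left _ (P_pos hv)

theorem P_two_self : P 2 2 = 2 := by
  have h := P_pow_self (r := 2) (k := 1) (a := 1) Nat.prime_two (by norm_num)
  simpa using h

theorem two_mul_P_two (hY : Real (.C n) p f M) (hp2 : 2 ≠ p) : 2 * P 2 M = P 2 (AA n (p ^ f)) := by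
  have ho : Odd (p ^ f) := (hY.hp.eq_two_or_odd'.resolve_left hp2.symm).pow
  have h4 : dd (.C n) (p ^ f) = 2 := Nat.gcd_eq_left (by obtain ⟨c, hc⟩ := ho; exact ⟨c, by omega⟩)
  have := P_dd_mul hY Nat.prime_two hp2
  rwa [h4, P_two_self] at this

/-- Legendre -/
theorem P_two_fac {n : ℕ} (hn : 1 ≤ n) : P 2 n.factorial ≤ 2 ^ (n - 1) := by
  have : Fact (Nat.Prime 2) := ⟨Nat.prime_two⟩
  rw [P, Nat.factorization_def _ Nat.prime_two]
  apply Nat.pow_le_pow_right (by norm_num)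
  have := sub_one_mul_padicValNat_factorial_lt_of_ne_zero (p := 2) (n := n) (by omega)
  omega

/-! ### the bound -/

theorem base_one {q : ℕ} (hq : 4 ≤ q) : 4 * ((q + 1) ^ 2) ^ 4 * 3 ^ 3 ≤ q ^ 14 := by
  have h1 : (4 * (q + 1)) ^ 8 ≤ (5 * q) ^ 8 := Nat.pow_le_pow_left (by omega) 8
  have h2 : (4 * (q + 1)) ^ 8 = 65536 * (q + 1) ^ 8 := by ring
  have h3 : (5 * q) ^ 8 = 390625 * q ^ 8 := by ring
  have h4 : q ^ 14 = q ^ 8 * q ^ 6 := by ring
  have h5 : q ^ 8 * 4 ^ 6 ≤ q ^ 8 * q ^ 6 := Nat.mul_le_mul_left _ (Nat.pow_le_pow_left hq 6)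
  have h6 : 4 * ((q + 1) ^ 2) ^ 4 * 3 ^ 3 = 108 * (q + 1) ^ 8 := by ring
  norm_num at h5
  omega

theorem ineq_one {q m : ℕ} (hq : 4 ≤ q) : 4 * ((q + 1) ^ 2) ^ (m + 4) * 3 ^ (m + 3) ≤ q ^ (4 * m + 14) := by
  induction m with
  | zero => simpa using base_one hq
  | succ m ih =>
    have h1 : 3 * (q + 1) ^ 2 ≤ q ^ 4 := by
      have h2 : (4 * (q + 1)) ^ 2 ≤ (5 * q) ^ 2 := Nat.pow_le_pow_left (by omega) 2
      have h3 : q ^ 4 = q ^ 2 * q ^ 2 := by ring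
      have h4 : q ^ 2 * 4 ^ 2 ≤ q ^ 2 * q ^ 2 := Nat.mul_le_mul_left _ (Nat.pow_le_pow_left hq 2)
      have h5 : (4 * (q + 1)) ^ 2 = 16 * (q + 1) ^ 2 := by ring
      have h6 : (5 * q) ^ 2 = 25 * q ^ 2 := by ring
      norm_num at h4
      omega
    calc 4 * ((q + 1) ^ 2) ^ (m + 1 + 4) * 3 ^ (m + 1 + 3) =
        (4 * ((q + 1) ^ 2) ^ (m + 4) * 3 ^ (m + 3)) * (3 * (q + 1) ^ 2) := by ring
      _ ≤ q ^ (4 * m + 14) * q ^ 4 := Nat.mul_le_mul ih h1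
      _ = _ := by ring

theorem ineq_two {a m : ℕ} (ha : 2 * a ≤ m + 4) : 4 * 5 ^ a ≤ 3 * 4 ^ (m + 3) := by
  have key : ∀ b : ℕ, 4 * 5 ^ (b + 2) ≤ 3 * 4 ^ (2 * b + 3) := by
    intro b
    induction b with
    | zero => norm_num
    | succ b ih =>
      calc 4 * 5 ^ (b + 1 + 2) = (4 * 5 ^ (b + 2)) * 5 := by ring
        _ ≤ (3 * 4 ^ (2 * b + 3)) * 16 := Nat.mul_le_mul ih (by norm_num)
        _ = _ := by ring
  rcases Nat.lt_or_ge a 2 with h | h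
  · have h1 : 5 ^ a ≤ 5 ^ 1 := Nat.pow_le_pow_right (by norm_num) (by omega)
    have h2 : 4 ^ 3 ≤ 4 ^ (m + 3) := Nat.pow_le_pow_right (by norm_num) (by omega)
    norm_num at h1 h2
    omega
  · obtain ⟨b, rfl⟩ : ∃ b, a = b + 2 := ⟨a - 2, by omega⟩
    refine (key b).trans (Nat.mul_le_mul_left _ (Nat.pow_le_pow_right (by norm_num) (by omega)))

theorem ineq_three {q m : ℕ} (hq : 7 ≤ q) : (4 * (q + 1)) ^ (m + 4) ≤ 2 * q ^ (2 * m + 7) := by
  induction m with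
  | zero =>
    have h1 : (7 * (q + 1)) ^ 4 ≤ (8 * q) ^ 4 := Nat.pow_le_pow_left (by omega) 4
    have h2 : (7 * (q + 1)) ^ 4 = 2401 * (q + 1) ^ 4 := by ring
    have h3 : (8 * q) ^ 4 = 4096 * q ^ 4 := by ring
    have h4 : q ^ (2 * 0 + 7) = q ^ 4 * q ^ 3 := by ring
    have h5 : q ^ 4 * 7 ^ 3 ≤ q ^ 4 * q ^ 3 := Nat.mul_le_mul_left _ (Nat.pow_le_pow_left hq 3)
    have h6 : (4 * (q + 1)) ^ (0 + 4) = 256 * (q + 1) ^ 4 := by ring
    norm_num at h5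
    omega
  | succ m ih =>
    have h1 : 4 * (q + 1) ≤ q ^ 2 := by nlinarith
    calc (4 * (q + 1)) ^ (m + 1 + 4) = (4 * (q + 1)) ^ (m + 4) * (4 * (q + 1)) := by ring
      _ ≤ (2 * q ^ (2 * m + 7)) * q ^ 2 := Nat.mul_le_mul ih h1
      _ = _ := by ring

theorem ineq_five {m : ℕ} : 8 ^ (m + 4) * 2 ^ (m + 3) ≤ 5 ^ (2 * m + 7) := by
  induction m with
  | zero => norm_num
  | succ m ih =>
    calc 8 ^ (m + 1 + 4) * 2 ^ (m + 1 + 3) = (8 ^ (m + 4) * 2 ^ (m + 3)) * 16 := by ring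
      _ ≤ 5 ^ (2 * m + 7) * 25 := Nat.mul_le_mul ih (by norm_num)
      _ = _ := by ring

/-- **the Sylow subgroups in the other characteristics are small** -/
theorem mu (hY : Real (.C n) p f M) (hn4 : 4 ≤ n) {v : ℕ} (hv : v.Prime) (hvp : v ≠ p)
    (h32 : ¬ (p ^ f = 3 ∧ v = 2)) (h23 : ¬ (p ^ f = 2 ∧ v = 3)) : 2 * P v M ≤ (p ^ f) ^ (2 * n - 1) := by
  have hq := hY.q_ge
  have hvq := ndvd_q hY hv hvp
  obtain ⟨m, rfl⟩ : ∃ m, n = m + 4 := ⟨n - 4, by omega⟩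
  have hP2 := two_mul_P_two hY
  have hPc := fun h2 : v ≠ 2 => P_card hY hv hvp h2
  generalize p ^ f = q at *
  have hexp : 2 * (m + 4) - 1 = 2 * m + 7 := by omega
  rw [hexp]
  by_cases hv2 : v = 2
  · subst hv2
    have ho : Odd q := by rw [← Nat.not_even_iff_odd, even_iff_two_dvd]; exact hvq
    rw [hP2 hvp]
    have hq3 : q ≠ 3 := fun h => h32 ⟨h, rfl⟩
    by_cases hq5 : q = 5
    · subst hq5
      rw [P_AA_two (by norm_num) ho]
      have h1 : P 2 (5 ^ 2 - 1) = 8 := by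
        have h := P_pow_self (r := 2) (k := 3) (a := 3) Nat.prime_two (by norm_num)
        norm_num at h ⊢
        exact h
      rw [h1]
      have h2 := P_two_fac (n := m + 4) (by omega)
      rw [show m + 4 - 1 = m + 3 by omega] at h2
      exact (Nat.mul_le_mul_left _ h2).trans ineq_five
    · have hq7 : 7 ≤ q := by obtain ⟨c, hc⟩ := ho; omega
      have h1 := PC_two (q := q) (by omega) ho (m := m + 4) (by omega)
      have h2 := ineq_three (q := q) (m := m) hq7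
      rw [AA]
      omega
  · rw [hPc hv2]
    obtain ⟨he, h | ⟨h1, h2⟩⟩ := PC_odd' hv hv2 hq hvq (m + 4)
    · rw [h.2, mul_one]
      calc 2 ≤ q := hq
        _ ≤ q ^ (2 * m + 7) := Nat.le_self_pow (by omega) q
    · apply le_of_sq_le
      rw [← pow_mul, show (2 * m + 7) * 2 = 4 * m + 14 by ring, mul_pow]
      by_cases he1 : orderOf ((q ^ 2 : ℕ) : ZMod v) = 1
      · have hvs : v ∣ q ^ 2 - 1 := by
          by_contra h
          exact order_ne_one hq h he1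
        rw [he1, Nat.div_one, pow_one, show m + 4 - 1 = m + 3 by omega] at h2
        have hq4 : 4 ≤ q := by
          by_contra h
          have h6 : q = 2 ∨ q = 3 := by omega
          rcases h6 with rfl | rfl
          · norm_num at hvs
            exact h23 ⟨rfl, (Nat.prime_dvd_prime_iff_eq hv Nat.prime_three).1 hvs⟩
          · have h7 : v ∣ 2 ^ 3 := hvs
            exact hv2 ((Nat.prime_dvd_prime_iff_eq hv Nat.prime_two).1 (hv.dvd_of_dvd_pow h7))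
        have h3 := ineq_one (q := q) (m := m) hq4
        calc 2 ^ 2 * P v (AA (m + 4) q) ^ 2 ≤ 4 * (((q + 1) ^ 2) ^ (m + 4) * 3 ^ (m + 3)) :=
              Nat.mul_le_mul (by norm_num) h2
          _ = 4 * ((q + 1) ^ 2) ^ (m + 4) * 3 ^ (m + 3) := by ring
          _ ≤ _ := h3
      · obtain ⟨e, hed⟩ : ∃ e, e = orderOf ((q ^ 2 : ℕ) : ZMod v) := ⟨_, rfl⟩
        rw [← hed] at he he1 h1 h2
        obtain ⟨a, had⟩ : ∃ a, a = (m + 4) / e := ⟨_, rfl⟩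
        rw [← had] at h2
        have ha0 : 1 ≤ a := by rw [had]; exact Nat.div_pos h1 (by omega)
        have hea : e * a ≤ m + 4 := by rw [had]; exact Nat.mul_div_le _ _
        have h2a : 2 * a ≤ m + 4 := (Nat.mul_le_mul_right a (show 2 ≤ e by omega)).trans hea
        have hx : 4 ≤ q ^ e := by
          calc 4 = 2 ^ 2 := by norm_num
            _ ≤ q ^ 2 := Nat.pow_le_pow_left hq 2
            _ ≤ q ^ e := Nat.pow_le_pow_right (by omega) (by omega)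
        have h3 : 3 * (q ^ e + 1) ^ 2 ≤ 5 * (q ^ e) ^ 2 := by nlinarith
        have h4 : 3 * P v (AA (m + 4) q) ^ 2 ≤ 5 ^ a * q ^ (2 * (m + 4)) := by
          calc 3 * P v (AA (m + 4) q) ^ 2 ≤ 3 * (((q ^ e + 1) ^ 2) ^ a * 3 ^ (a - 1)) := Nat.mul_le_mul_left _ h2
            _ = (3 * (q ^ e + 1) ^ 2) ^ a := by
                obtain ⟨b, rfl⟩ : ∃ b, a = b + 1 := ⟨a - 1, by omega⟩
                rw [Nat.add_sub_cancel, mul_pow]; ring
            _ ≤ (5 * (q ^ e) ^ 2) ^ a := Nat.pow_le_pow_left h3 a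
            _ = 5 ^ a * q ^ (2 * (e * a)) := by
                rw [mul_pow, ← pow_mul, ← pow_mul]; congr 2; ring
            _ ≤ _ := Nat.mul_le_mul_left _ (Nat.pow_le_pow_right (by omega) (by omega))
        have h6 := ineq_two (a := a) (m := m) h2a
        have h7 : 4 ^ (m + 3) ≤ q ^ (2 * m + 6) := by
          calc 4 ^ (m + 3) = 2 ^ (2 * (m + 3)) := by rw [pow_mul]; norm_num
            _ ≤ q ^ (2 * (m + 3)) := Nat.pow_le_pow_left hq _
            _ = _ := by congr 1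
        have h8 : 3 * (2 ^ 2 * P v (AA (m + 4) q) ^ 2) ≤ 3 * q ^ (4 * m + 14) := by
          calc 3 * (2 ^ 2 * P v (AA (m + 4) q) ^ 2) = 4 * (3 * P v (AA (m + 4) q) ^ 2) := by ring
            _ ≤ 4 * (5 ^ a * q ^ (2 * (m + 4))) := Nat.mul_le_mul_left _ h4
            _ = (4 * 5 ^ a) * q ^ (2 * (m + 4)) := by ring
            _ ≤ (3 * q ^ (2 * m + 6)) * q ^ (2 * (m + 4)) :=
                Nat.mul_le_mul_right _ (h6.trans (Nat.mul_le_mul_left _ h7))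
            _ = _ := by rw [mul_assoc, ← pow_add]; congr 2; ring
        omega

/-! ### the index -/

/-- a bound for the part of the kernel in the special characteristic -/
theorem exists_K' (hY : Real (.C n) p f M) (hn : 1 ≤ n) (hκ : κ ∣ M)
    (h : ∀ v : ℕ, v.Prime → v ≠ p → v ∣ κ → (p ^ f = 3 ∧ v = 2) ∨ (p ^ f = 2 ∧ v = 3)) :
    ∃ K' : ℕ, K' ≠ 0 ∧ K' ≤ 16 ^ n ∧ ∀ v : ℕ, v.Prime → v ≠ p → P v κ ≤ P v K' := by
  have hq := hY.q_ge
  have key : ∀ s : ℕ, s.Prime → s ≠ p → p ^ f ≤ 3 → (∀ v : ℕ, v.Prime → v ≠ p → v ∣ κ → v = s) →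
      ∃ K' : ℕ, K' ≠ 0 ∧ K' ≤ 16 ^ n ∧ ∀ v : ℕ, v.Prime → v ≠ p → P v κ ≤ P v K' := by
    intro s hs hsp h3 hall
    refine ⟨P s κ, (P_pos hs).ne', ?_, ?_⟩
    · calc P s κ ≤ P s M := P_mono hs hY.M_ne hκ
        _ ≤ P s (AA n (p ^ f)) := P_card_le hY hs hsp
        _ ≤ (4 * (p ^ f + 1)) ^ n := P_le_gen hs hq (ndvd_q hY hs hsp) hn
        _ ≤ 16 ^ n := Nat.pow_le_pow_left (by omega) n
    · intro v hv hvp
      by_cases hvκ : v ∣ κ
      · have := hall v hv hvp hvκ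
        subst this
        have h1 := P_pow_self (r := v) (k := κ.factorization v) (a := 1) hv (fun h => hv.one_lt.ne' (Nat.dvd_one.1 h))
        rw [mul_one] at h1
        exact h1.ge
      · rw [P_eq_one hvκ]
        exact P_pos hv
  by_cases h3 : p ^ f = 3
  · have hp3 : p ∣ 3 := h3 ▸ dvd_pow_self p (by have := hY.hf; omega)
    have hp : p = 3 := (Nat.prime_dvd_prime_iff_eq hY.hp Nat.prime_three).1 hp3
    refine key 2 Nat.prime_two (by omega) h3.le fun v hv hvp hvκ => ?_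
    rcases h v hv hvp hvκ with h1 | h1
    · exact h1.2
    · omega
  by_cases h2 : p ^ f = 2
  · have hp3 : p ∣ 2 := h2 ▸ dvd_pow_self p (by have := hY.hf; omega)
    have hp : p = 2 := (Nat.prime_dvd_prime_iff_eq hY.hp Nat.prime_two).1 hp3
    refine key 3 Nat.prime_three (by omega) (by omega) fun v hv hvp hvκ => ?_
    rcases h v hv hvp hvκ with h1 | h1
    · omega
    · exact h1.2
  · refine ⟨1, one_ne_zero, Nat.one_le_pow _ _ (by norm_num), fun v hv hvp => ?_⟩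
    rw [P_eq_one fun hvκ => ?_]
    · exact P_pos hv
    · rcases h v hv hvp hvκ with h1 | h1
      · exact h3 h1.1
      · exact h2 h1.1

/-- the order of the product divides -/
theorem AA_dvd' (hY : Real (.C n) p f M) (hfac : κ * (M' * i) = M) {K' : ℕ} (hK' : K' ≠ 0)
    (h : ∀ v : ℕ, v.Prime → v ≠ p → P v κ ≤ P v K') : AA n (p ^ f) ∣ 2 * K' * M' * i := by
  have hq := hY.q_ge
  have hM0 := hY.M_ne
  have hκ0 : κ ≠ 0 := by rintro rfl; rw [zero_mul] at hfac; exact hM0 hfac.symm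
  have hM'0 : M' ≠ 0 := by rintro rfl; rw [zero_mul, mul_zero] at hfac; exact hM0 hfac.symm
  have hi0 : i ≠ 0 := by rintro rfl; rw [mul_zero, mul_zero] at hfac; exact hM0 hfac.symm
  have h20 : 2 * K' ≠ 0 := Nat.mul_ne_zero (by norm_num) hK'
  apply dvd_of_P (AA_ne hq) (Nat.mul_ne_zero (Nat.mul_ne_zero h20 hM'0) hi0)
  intro v hv
  by_cases hvp : v = p
  · subst hvp
    rw [P_AA_one hv (dvd_pow_self v (by have := hY.hf; omega)) hq]
    exact P_pos hv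
  · rw [← P_dd_mul hY hv hvp, ← hfac, P_mul hκ0 (Nat.mul_ne_zero hM'0 hi0), P_mul hM'0 hi0,
      P_mul (Nat.mul_ne_zero h20 hM'0) hi0, P_mul h20 hM'0, P_mul (by norm_num) hK']
    have h1 : P v (dd (.C n) (p ^ f)) ≤ P v 2 := P_mono hv (by norm_num) (Nat.gcd_dvd_left 2 _)
    calc P v (dd (.C n) (p ^ f)) * (P v κ * (P v M' * P v i)) ≤ P v 2 * (P v K' * (P v M' * P v i)) :=
          Nat.mul_le_mul h1 (Nat.mul_le_mul_right _ (h v hv hvp))
      _ = _ := by ring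

theorem four_mul_le {n : ℕ} (hn : 4 ≤ n) : 4 * n ≤ 2 ^ n := by
  induction n, hn using Nat.le_induction with
  | base => norm_num
  | succ n hn ih => rw [pow_succ]; omega

/-- **No simple group of Lie type in another characteristic**, `n ≥ 16` -/
theorem cross_large {X : Sh} {w g : ℕ} (hY : Real (.C n) p f M) (hX : Real X w g M') (hwp : w ≠ p) (hn : 16 ≤ n)
    (hfac : κ * (M' * i) = M) (hi : i ∣ 2 * n)
    (hκ : ∀ v : ℕ, v.Prime → v ≠ p → v ∣ κ → (p ^ f = 3 ∧ v = 2) ∨ (p ^ f = 2 ∧ v = 3)) : False := by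
  have hq := hY.q_ge
  have hw := hX.hp
  have hM0 := hY.M_ne
  have hM'0 := hX.M_ne
  have hlt := hX.lt_cube
  obtain ⟨K', hK'0, hK'16, hK'⟩ := exists_K' hY (by omega) (Dvd.intro _ hfac) hκ
  have hi0 : i ≠ 0 := by rintro rfl; rw [mul_zero, mul_zero] at hfac; exact hM0 hfac.symm
  have h1 := Nat.le_of_dvd (Nat.pos_of_ne_zero (Nat.mul_ne_zero (Nat.mul_ne_zero (Nat.mul_ne_zero (by norm_num) hK'0)
    hM'0) hi0)) (AA_dvd' hY hfac hK'0 hK')
  have h2 := AA_ge hq n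
  have hdvd : M' ∣ M := ⟨i * κ, by rw [← hfac]; ring⟩
  have h3 : P w M' ≤ (4 * (p ^ f + 1)) ^ n := (P_mono hw hM0 hdvd).trans ((P_card_le hY hw hwp).trans
    (P_le_gen hw hq (ndvd_q hY hw hwp) (by omega)))
  have h4 : M' ≤ ((4 * (p ^ f + 1)) ^ n) ^ 3 := hlt.le.trans (Nat.pow_le_pow_left h3 3)
  have h5 : i ≤ 2 * n := Nat.le_of_dvd (by omega) hi
  have h6 := four_mul_le (n := n) (by omega)
  generalize p ^ f = q at *
  have h7 : ((q ^ 2 - 1) * q ^ (n - 1)) ^ n ≤ (2048 * (q + 1) ^ 3) ^ n := by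
    calc ((q ^ 2 - 1) * q ^ (n - 1)) ^ n = (q ^ 2 - 1) ^ n * q ^ (n * (n - 1)) := by
          rw [mul_pow, ← pow_mul, mul_comm (n - 1) n]
      _ ≤ 2 * K' * M' * i := h2.trans h1
      _ ≤ 2 * 16 ^ n * ((4 * (q + 1)) ^ n) ^ 3 * (2 * n) :=
          Nat.mul_le_mul (Nat.mul_le_mul (Nat.mul_le_mul_left _ hK'16) h4) h5
      _ = (16 ^ n * ((4 * (q + 1)) ^ n) ^ 3) * (4 * n) := by ring
      _ ≤ (16 ^ n * ((4 * (q + 1)) ^ n) ^ 3) * 2 ^ n := Nat.mul_le_mul_left _ h6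
      _ = _ := by
        rw [← pow_mul (4 * (q + 1)), mul_comm n 3, pow_mul (4 * (q + 1)), ← mul_pow, ← mul_pow]
        congr 1; ring
  have h8 := (Nat.pow_le_pow_iff_left (by omega)).1 h7
  have h9 : (2 * (q + 1)) ^ 3 ≤ (3 * q) ^ 3 := Nat.pow_le_pow_left (by omega) 3
  have h10 : (2 * (q + 1)) ^ 3 = 8 * (q + 1) ^ 3 := by ring
  have h11 : (3 * q) ^ 3 = 27 * q ^ 3 := by ring
  have h12 : 3 ≤ q ^ 2 - 1 := by
    have : 2 ^ 2 ≤ q ^ 2 := Nat.pow_le_pow_left hq 2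
    omega
  have h13 : 4096 * q ^ 3 ≤ q ^ (n - 1) := by
    calc 4096 * q ^ 3 ≤ q ^ 12 * q ^ 3 := Nat.mul_le_mul_right _ (show 2 ^ 12 ≤ q ^ 12 from Nat.pow_le_pow_left hq 12)
      _ = q ^ 15 := by ring
      _ ≤ _ := Nat.pow_le_pow_right (by omega) (by omega)
  have h14 : 3 * (4096 * q ^ 3) ≤ (q ^ 2 - 1) * q ^ (n - 1) := Nat.mul_le_mul h12 h13
  have h15 : 0 < q ^ 3 := pow_pos (by omega) 3
  omega

/-- `n = 8` -/
theorem cross_eight' {X : Sh} {w g : ℕ} (hY : Real (.C 8) p f M) (hX : Real X w g M') (hwp : w ≠ p)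
    (hfac : κ * (M' * i) = M) (hi : i ∣ 2 * 8)
    (hκ : ∀ v : ℕ, v.Prime → v ≠ p → v ∣ κ → (p ^ f = 3 ∧ v = 2) ∨ (p ^ f = 2 ∧ v = 3)) : False := by
  refine cross_eight hY hX hwp hfac hi fun v hv hv2 hvq hvs h => ?_
  have hf := hY.hf
  have hvp : v ≠ p := by rintro rfl; exact hvq (dvd_pow_self v (by omega))
  rcases hκ v hv hvp h with h1 | h1
  · exact hv2 h1.2
  · rw [h1.1, h1.2] at hvs
    norm_num at hvs

end Cfsg.Agent.H365.CS
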