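import Mathlib
import Cfsg.Agent.H365.CS.Mu
import Cfsg.Agent.H902.Enum

/-!
# Other characteristics, `n = 4` (helper365)
-/

set_option autoImplicit false

namespace Cfsg.Agent.H365.CS

open Finset Cfsg Cfsg.Agent.H902.Art Cfsg.Agent.H902.Lte Cfsg.Agent.H364.SpVal Cfsg.Agent.H365.TorSp

variable {n q p f κ M' i M : ℕ}

/-- `κ` and `i` are powers of two: all of the odd part is in `M'` -/
theorem AA_dvd_ev (hY : Real (.C n) 2 f M) (hfac : κ * (M' * i) = M) (hi : ∀ v : ℕ, v.Prime → v ≠ 2 → ¬ v ∣ i)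
    (hκ : ∀ v : ℕ, v.Prime → v ≠ 2 → ¬ v ∣ κ) {M'' A : ℕ} (hM' : M' = A * M'') (hA : A = 1 ∨ A = P 2 M') :
    AA n (2 ^ f) ∣ M'' := by
  have hq := hY.q_ge
  have hM0 := hY.M_ne
  have hκ0 : κ ≠ 0 := by rintro rfl; rw [zero_mul] at hfac; exact hM0 hfac.symm
  have hM'0 : M' ≠ 0 := by rintro rfl; rw [zero_mul, mul_zero] at hfac; exact hM0 hfac.symm
  have hi0 : i ≠ 0 := by rintro rfl; rw [mul_zero, mul_zero] at hfac; exact hM0 hfac.symm
  have hA0 : A ≠ 0 := by rintro rfl; rw [zero_mul] at hM'; exact hM'0 hM'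
  have hM''0 : M'' ≠ 0 := by rintro rfl; rw [mul_zero] at hM'; exact hM'0 hM'
  apply dvd_of_P (AA_ne hq) hM''0
  intro v hv
  by_cases hv2 : v = 2
  · subst hv2
    rw [P_AA_one hv (dvd_pow_self 2 (by have := hY.hf; omega)) hq]
    exact P_pos hv
  · have h4 : ¬ v ∣ A := by
      rcases hA with rfl | h6
      · exact hv.one_lt.not_ge ∘ Nat.le_of_dvd one_pos
      · intro h7
        rw [h6, P] at h7
        exact hv2 ((Nat.prime_dvd_prime_iff_eq hv Nat.prime_two).1 (hv.dvd_of_dvd_pow h7))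
    rw [← P_card hY hv hv2 hv2, ← hfac, P_mul hκ0 (Nat.mul_ne_zero hM'0 hi0), P_mul hM'0 hi0,
      P_eq_one (hκ v hv hv2), one_mul, P_eq_one (hi v hv hv2), mul_one, hM', P_mul hA0 hM''0, P_eq_one h4, one_mul]

theorem P_le_other_four {w : ℕ} (hw : w.Prime) (hw2 : w ≠ 2) (hwq : ¬ w ∣ q) (hws : ¬ w ∣ q ^ 2 - 1) (hq : 2 ≤ q) :
    P w (AA 4 q) ≤ (q ^ 2 + 1) ^ 2 := by
  have he1 := order_ne_one hq hws
  have he0 : orderOf ((q ^ 2 : ℕ) : ZMod w) ≠ 0 := by
    have := order_pos (q := q) hw (not_dvd_sq hw hwq)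
    rw [cast_sq] at this
    omega
  rw [P_AA hw hw2 hq hwq]
  have hr3 := ne_three hwq hq hws
  obtain ⟨e, he⟩ : ∃ e, e = orderOf ((q ^ 2 : ℕ) : ZMod w) := ⟨_, rfl⟩
  rw [← he] at he1 he0 ⊢
  have hfac : P w (4 / e).factorial = 1 := not_dvd_fac hw hw2 hr3 (by
    have : 4 / e ≤ 4 / 2 := Nat.div_le_div_left (by omega) (by norm_num)
    omega)
  rw [hfac, mul_one]
  by_cases he8 : 4 < e
  · rw [Nat.div_eq_of_lt he8, pow_zero]
    exact Nat.one_le_pow _ _ (by positivity)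
  have hhalf := P_sq_sub_one_le (q := q) hw hw2 hq (show 1 ≤ e by omega)
  refine (Nat.pow_le_pow_left hhalf _).trans ?_
  have h34 : q ^ 3 ≤ q ^ 4 := Nat.pow_le_pow_right (by omega) (by norm_num)
  have h4 : (q ^ 2 + 1) ^ 2 = q ^ 4 + 1 + 2 * q ^ 2 := by ring
  have h6a : 2 ≤ e := by omega
  have h6b : e ≤ 4 := by omega
  interval_cases e
  · norm_num
  · norm_num; omega
  · norm_num; omega

theorem AA_four_two : AA 4 2 = 722925 := by decide

theorem chk_three : ∀ a ∈ ents 3 5, ¬ 7 ∣ val 3 a := by decide +kernel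

/-- **no simple group of Lie type in odd characteristic** -/
theorem cross_four {X : Sh} {w g : ℕ} (hY : Real (.C 4) 2 f M) (hX : Real X w g M') (hwp : w ≠ 2)
    (hfac : κ * (M' * i) = M) (hi : ∀ v : ℕ, v.Prime → v ≠ 2 → ¬ v ∣ i)
    (hκ : ∀ v : ℕ, v.Prime → v ≠ 2 → ¬ v ∣ κ) : False := by
  have hq := hY.q_ge
  have hw := hX.hp
  have hM0 := hY.M_ne
  have hM'0 := hX.M_ne
  have hlt := hX.lt_cube
  have hwq : ¬ w ∣ 2 ^ f := fun h => hwp ((Nat.prime_dvd_prime_iff_eq hw hY.hp).1 (hw.dvd_of_dvd_pow h))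
  have hdvd : M' ∣ M := ⟨i * κ, by rw [← hfac]; ring⟩
  have hAM : P w M' ≤ P w M := P_mono hw hM0 hdvd
  have h1 := AA_dvd_ev hY hfac hi hκ (one_mul M').symm (Or.inl rfl)
  rw [P_card hY hw hwp hwp] at hAM
  have hle := Nat.le_of_dvd (Nat.pos_of_ne_zero hM'0) h1
  have hPeq : P w M' = P w (AA 4 (2 ^ f)) := le_antisymm hAM (P_mono hw hM'0 h1)
  have hge := AA_ge hq 4
  norm_num at hge
  have hev : Even (2 ^ f) := (Nat.even_pow.2 ⟨even_two, by have := hY.hf; omega⟩)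
  obtain ⟨q, hqd⟩ : ∃ q, q = 2 ^ f := ⟨_, rfl⟩
  rw [← hqd] at hge hle hAM hwq hq h1 hPeq hev
  have hq2 : 4 ≤ q ^ 2 := by nlinarith
  by_cases hws : w ∣ q ^ 2 - 1
  · have h2 : P w (q ^ 2 - 1) ≤ q + 1 := by
      have := P_sq_sub_one_le (q := q) (j := 1) hw hwp hq le_rfl
      simpa using this
    have h3 : P w (Nat.factorial 4) ≤ 3 := by
      have h8 : Nat.factorial 4 = 24 := by decide
      by_cases h3' : w = 3
      · subst h3'
        have h7 := P_pow_self (r := 3) (k := 1) (a := 8) Nat.prime_three (by norm_num)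
        norm_num at h7
        rw [h8, h7]
      · rw [not_dvd_fac hw hwp h3' le_rfl]; norm_num
    rw [P_AA_small hw hwq hws hq] at hAM
    have h4 : P w M' ≤ (q + 1) ^ 4 * 3 := hAM.trans (Nat.mul_le_mul (Nat.pow_le_pow_left h2 4) h3)
    have h5 : M' < ((q + 1) ^ 4 * 3) ^ 3 := hlt.trans_le (Nat.pow_le_pow_left h4 3)
    have h6 : (q ^ 2 - 1) ^ 4 = (q + 1) ^ 4 * (q - 1) ^ 4 := by
      obtain ⟨c, rfl⟩ := Nat.exists_eq_add_of_le' (show 1 ≤ q by omega)
      have : (c + 1) ^ 2 - 1 = c * (c + 1 + 1) := by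
        have : (c + 1) ^ 2 = c * (c + 1 + 1) + 1 := by ring
        omega
      rw [this, Nat.add_sub_cancel]; ring
    rw [h6] at hge
    have h7 : (q + 1) ^ 4 * ((q - 1) ^ 4 * q ^ 12) < (q + 1) ^ 4 * (27 * (q + 1) ^ 8) := by
      calc (q + 1) ^ 4 * ((q - 1) ^ 4 * q ^ 12) = (q + 1) ^ 4 * (q - 1) ^ 4 * q ^ 12 := by ring
        _ ≤ M' := hge.trans hle
        _ < _ := h5
        _ = _ := by ring
    have h8 := Nat.lt_of_mul_lt_mul_left h7
    by_cases hq4 : 4 ≤ q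
    · have h9 : (4 * (q + 1)) ^ 8 ≤ (5 * q) ^ 8 := Nat.pow_le_pow_left (by omega) 8
      have h10 : (4 * (q + 1)) ^ 8 = 65536 * (q + 1) ^ 8 := by ring
      have h11 : (5 * q) ^ 8 = 390625 * q ^ 8 := by ring
      have h12 : 81 * 256 ≤ (q - 1) ^ 4 * q ^ 4 :=
        Nat.mul_le_mul (show 3 ^ 4 ≤ (q - 1) ^ 4 from Nat.pow_le_pow_left (by omega) 4)
          (show 4 ^ 4 ≤ q ^ 4 from Nat.pow_le_pow_left hq4 4)
      have h13 : (q - 1) ^ 4 * q ^ 12 = q ^ 8 * ((q - 1) ^ 4 * q ^ 4) := by ring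
      have h14 : q ^ 8 * (81 * 256) ≤ q ^ 8 * ((q - 1) ^ 4 * q ^ 4) := Nat.mul_le_mul_left _ h12
      have h15 : 0 < q ^ 8 := pow_pos (by omega) 8
      omega
    · have hq2' : q = 2 := by
        obtain ⟨c, hc⟩ := hev
        omega
      subst hq2'
      norm_num at hws
      have hw3 := (Nat.prime_dvd_prime_iff_eq hw Nat.prime_three).1 hws
      subst hw3
      rw [AA_four_two] at hPeq h1
      have h9 : P 3 722925 = 3 ^ 5 := by
        have h7 := P_pow_self (r := 3) (k := 5) (a := 2975) Nat.prime_three (by norm_num)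
        norm_num at h7 ⊢
        exact h7
      have hexp : g * NN X = 5 := by
        rw [P_prime_exp hX]
        rw [h9] at hPeq
        exact Nat.pow_right_injective (le_refl 2 |>.trans (by norm_num : 2 ≤ 3)) hPeq
      have hmem := mem_ents hX hexp
      have hval := val_eq hX
      apply chk_three _ hmem
      rw [hval]
      exact (show 7 ∣ 722925 by norm_num).trans h1
  · have h2 := P_le_other_four hw hwp hwq hws hq
    have h5 : M' < ((q ^ 2 + 1) ^ 2) ^ 3 := hlt.trans_le (Nat.pow_le_pow_left (hAM.trans h2) 3)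
    have h6 : ((q ^ 2 + 1) ^ 2) ^ 3 = (q ^ 2 + 1) ^ 6 := by ring
    have h7 : (4 * (q ^ 2 + 1)) ^ 6 ≤ (5 * q ^ 2) ^ 6 := Nat.pow_le_pow_left (by omega) 6
    have h8 : (4 * (q ^ 2 + 1)) ^ 6 = 4096 * (q ^ 2 + 1) ^ 6 := by ring
    have h9 : (5 * q ^ 2) ^ 6 = 15625 * q ^ 12 := by ring
    have h10 : 81 ≤ (q ^ 2 - 1) ^ 4 := by
      calc 81 = 3 ^ 4 := by norm_num
        _ ≤ _ := Nat.pow_le_pow_left (by omega) 4
    have h11 : 81 * q ^ 12 ≤ (q ^ 2 - 1) ^ 4 * q ^ 12 := Nat.mul_le_mul_right _ h10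
    have h12 : 0 < q ^ 12 := pow_pos (by omega) 12
    omega


/-! ### `q` odd -/

theorem chk_41 : ∀ e ∈ [12, 13, 14], ∀ a ∈ ents 2 e, ¬ 3731 ∣ val 2 a := by decide +kernel

theorem AA_four_three : AA 4 3 = 3056435200 := by decide

theorem P_two_fac_four : P 2 (Nat.factorial 4) = 8 := by
  have h8 : Nat.factorial 4 = 24 := by decide
  have h := P_pow_self (r := 2) (k := 3) (a := 3) Nat.prime_two (by norm_num)
  norm_num at h
  rw [h8]; exact h

theorem sq_fac {q : ℕ} (hq : 2 ≤ q) : (q ^ 2 - 1) ^ 4 = (q + 1) ^ 4 * (q - 1) ^ 4 := by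
  obtain ⟨c, rfl⟩ := Nat.exists_eq_add_of_le' (show 1 ≤ q by omega)
  have : (c + 1) ^ 2 - 1 = c * (c + 1 + 1) := by
    have : (c + 1) ^ 2 = c * (c + 1 + 1) + 1 := by ring
    omega
  rw [this, Nat.add_sub_cancel]; ring

/-- the odd part -/
theorem AA_dvd_two (hY : Real (.C n) p f M) (hfac : κ * (M' * i) = M) (hi : ∀ v : ℕ, v.Prime → v ≠ 2 → ¬ v ∣ i)
    (hκ : ∀ v : ℕ, v.Prime → v ≠ p → ¬ v ∣ κ) {M'' A : ℕ} (hM' : M' = A * M'') (hA : A = P 2 M') :
    AA n (p ^ f) ∣ P 2 (AA n (p ^ f)) * M'' := by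
  have hq := hY.q_ge
  have hM0 := hY.M_ne
  have hκ0 : κ ≠ 0 := by rintro rfl; rw [zero_mul] at hfac; exact hM0 hfac.symm
  have hM'0 : M' ≠ 0 := by rintro rfl; rw [zero_mul, mul_zero] at hfac; exact hM0 hfac.symm
  have hi0 : i ≠ 0 := by rintro rfl; rw [mul_zero, mul_zero] at hfac; exact hM0 hfac.symm
  have hA0 : A ≠ 0 := by rintro rfl; rw [zero_mul] at hM'; exact hM'0 hM'
  have hM''0 : M'' ≠ 0 := by rintro rfl; rw [mul_zero] at hM'; exact hM'0 hM'
  have hP0 : P 2 (AA n (p ^ f)) ≠ 0 := (P_pos Nat.prime_two).ne'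
  apply dvd_of_P (AA_ne hq) (Nat.mul_ne_zero hP0 hM''0)
  intro v hv
  by_cases hvp : v = p
  · subst hvp
    rw [P_AA_one hv (dvd_pow_self v (by have := hY.hf; omega)) hq]
    exact P_pos hv
  by_cases hv2 : v = 2
  · subst hv2
    rw [P_mul hP0 hM''0]
    have h1 : P 2 (P 2 (AA n (p ^ f))) = P 2 (AA n (p ^ f)) := by
      have h := P_pow_self (r := 2) (k := (AA n (p ^ f)).factorization 2) (a := 1) Nat.prime_two (by norm_num)
      rwa [mul_one] at h
    rw [h1]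
    exact Nat.le_mul_of_pos_right _ (P_pos hv)
  · have h4 : ¬ v ∣ A := by
      intro h7
      rw [hA, P] at h7
      exact hv2 ((Nat.prime_dvd_prime_iff_eq hv Nat.prime_two).1 (hv.dvd_of_dvd_pow h7))
    rw [← P_card hY hv hvp hv2, ← hfac, P_mul hκ0 (Nat.mul_ne_zero hM'0 hi0), P_mul hM'0 hi0,
      P_eq_one (hκ v hv hvp), one_mul, P_eq_one (hi v hv hv2), mul_one, hM', P_mul hA0 hM''0, P_eq_one h4, one_mul,
      P_mul hP0 hM''0]
    exact Nat.le_mul_of_pos_left _ (P_pos hv)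

/-- **no simple group of Lie type in another characteristic**, `n = 4`, `q` odd -/
theorem cross_four_odd {X : Sh} {w g : ℕ} (hY : Real (.C 4) p f M) (hX : Real X w g M') (hwp : w ≠ p) (hp2 : p ≠ 2)
    (hfac : κ * (M' * i) = M) (hi : i ∣ 4) (hκ : ∀ v : ℕ, v.Prime → v ≠ p → ¬ v ∣ κ) : False := by
  have hq := hY.q_ge
  have hw := hX.hp
  have hM0 := hY.M_ne
  have hM'0 := hX.M_ne
  have hlt := hX.lt_cube
  have hi0 : i ≠ 0 := by rintro rfl; rw [mul_zero, mul_zero] at hfac; exact hM0 hfac.symm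
  have hi4 : i ≤ 4 := Nat.le_of_dvd (by norm_num) hi
  have hwq : ¬ w ∣ p ^ f := ndvd_q hY hw hwp
  have hdvd : M' ∣ M := ⟨i * κ, by rw [← hfac]; ring⟩
  have hAM : P w M' ≤ P w M := P_mono hw hM0 hdvd
  have ho : Odd (p ^ f) := (hY.hp.eq_two_or_odd'.resolve_left hp2).pow
  have h1 : AA 4 (p ^ f) ∣ 2 * 1 * M' * i := AA_dvd' hY hfac one_ne_zero fun v hv hvp => by
    rw [P_eq_one (hκ v hv hvp)]; exact P_pos hv
  have h1' : AA 4 (p ^ f) ∣ 8 * M' := h1.trans (by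
    obtain ⟨c, hc⟩ := hi
    exact ⟨c, by rw [show (8 : ℕ) = 2 * 4 by norm_num, hc]; ring⟩)
  have hle := Nat.le_of_dvd (by omega) h1'
  have hge := AA_ge hq 4
  norm_num at hge
  have hq3 : 3 ≤ p ^ f := by obtain ⟨c, hc⟩ := ho; omega
  have hiodd : ∀ v : ℕ, v.Prime → v ≠ 2 → ¬ v ∣ i := fun v hv hv2 h => hv2
    ((Nat.prime_dvd_prime_iff_eq hv Nat.prime_two).1 (hv.dvd_of_dvd_pow (show v ∣ 2 ^ 2 from h.trans hi)))
  by_cases hw2 : w = 2
  · subst hw2
    have hB : P 2 M = 4 * P 2 ((p ^ f) ^ 2 - 1) ^ 4 := by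
      have h2 := two_mul_P_two hY hwp
      rw [P_AA_two hq ho, P_two_fac_four] at h2
      omega
    by_cases hq3' : p ^ f = 3
    · -- `q = 3`
      rw [hq3', AA_four_three] at h1'
      rw [hq3'] at hB
      have h8 : P 2 (3 ^ 2 - 1) = 8 := by
        have h := P_pow_self (r := 2) (k := 3) (a := 1) Nat.prime_two (by norm_num)
        norm_num at h ⊢
        exact h
      rw [h8] at hB
      have h3731 : 3731 ∣ M' := by
        have h2 : 3731 ∣ 8 * M' := (show 3731 ∣ 3056435200 by norm_num).trans h1'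
        exact (Nat.Coprime.dvd_of_dvd_mul_left (by norm_num) h2)
      have hκ0 : κ ≠ 0 := by rintro rfl; rw [zero_mul] at hfac; exact hM0 hfac.symm
      have h2 : P 2 M' * P 2 i = 2 ^ 14 := by
        have h3 : P 2 M = P 2 M' * P 2 i := by
          rw [← hfac, P_mul hκ0 (Nat.mul_ne_zero hM'0 hi0), P_mul hM'0 hi0, P_eq_one (hκ 2 hw hwp), one_mul]
        rw [← h3, hB]
        norm_num
      have h3 : g * NN X = M'.factorization 2 := P_prime_exp hX
      have h5 : M'.factorization 2 + i.factorization 2 = 14 := by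
        rw [P, P, ← pow_add] at h2
        exact Nat.pow_right_injective (le_refl 2) h2
      have h6 : i.factorization 2 ≤ 2 := by
        have h7 : 2 ^ i.factorization 2 ≤ 2 ^ 2 := (Nat.le_of_dvd (Nat.pos_of_ne_zero hi0) (Nat.ordProj_dvd i 2)).trans hi4
        exact (Nat.pow_le_pow_iff_right (by norm_num)).1 h7
      have hmem := mem_ents hX rfl
      have hval := val_eq hX
      refine chk_41 (g * NN X) ?_ _ hmem (by rw [hval]; exact h3731)
      have h7 : g * NN X = 12 ∨ g * NN X = 13 ∨ g * NN X = 14 := by omega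
      rcases h7 with h7 | h7 | h7 <;> rw [h7] <;> simp
    · have hq5 : 5 ≤ p ^ f := by obtain ⟨c, hc⟩ := ho; omega
      obtain ⟨A, hA⟩ : ∃ A, A = P 2 M' := ⟨_, rfl⟩
      have hApos : 0 < A := by rw [hA]; exact P_pos hw
      obtain ⟨M'', hM''⟩ : A ∣ M' := by rw [hA]; exact P_dvd 2 M'
      have hM''0 : 0 < M'' := Nat.pos_of_ne_zero (by rintro rfl; rw [mul_zero] at hM''; exact hM'0 hM'')
      have hlt2 : M'' < A ^ 2 := by
        rw [← hA] at hlt
        have h1 : A * M'' < A * A ^ 2 := by rw [← hM'']; calc M' < A ^ 3 := hlt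
          _ = _ := by ring
        exact Nat.lt_of_mul_lt_mul_left h1
      have h2 := Nat.le_of_dvd (Nat.mul_pos (P_pos Nat.prime_two) hM''0) (AA_dvd_two hY hfac hiodd hκ hM'' hA)
      rw [← two_mul_P_two hY hwp] at h2
      rw [← hA] at hAM
      obtain ⟨B, hBd⟩ : ∃ B, B = P 2 M := ⟨_, rfl⟩
      rw [← hBd] at h2 hAM hB
      have hB0 : 0 < B := hApos.trans_le hAM
      have h3 : AA 4 (p ^ f) < 2 * B ^ 3 := by
        calc AA 4 (p ^ f) ≤ 2 * B * M'' := h2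
          _ < 2 * B * A ^ 2 := Nat.mul_lt_mul_of_pos_left hlt2 (by omega)
          _ ≤ 2 * B * B ^ 2 := Nat.mul_le_mul_left _ (Nat.pow_le_pow_left hAM 2)
          _ = _ := by ring
      by_cases hq5' : p ^ f = 5
      · rw [hq5'] at h3 hB
        have h8 : P 2 (5 ^ 2 - 1) = 8 := by
          have h := P_pow_self (r := 2) (k := 3) (a := 3) Nat.prime_two (by norm_num)
          norm_num at h ⊢
          exact h
        rw [h8] at hB
        rw [hB] at h3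
        revert h3
        decide
      · have hq7 : 7 ≤ p ^ f := by obtain ⟨c, hc⟩ := ho; omega
        have h4 := P_two_sq_le ho hq
        have h5 : B ≤ 64 * (p ^ f + 1) ^ 4 := by
          rw [hB]
          calc 4 * P 2 ((p ^ f) ^ 2 - 1) ^ 4 ≤ 4 * (2 * (p ^ f + 1)) ^ 4 :=
                Nat.mul_le_mul_left _ (Nat.pow_le_pow_left h4 4)
            _ = _ := by ring
        generalize p ^ f = q at *
        have h6 : 2 * B ^ 3 ≤ (q + 1) ^ 4 * (524288 * (q + 1) ^ 8) := by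
          calc 2 * B ^ 3 ≤ 2 * (64 * (q + 1) ^ 4) ^ 3 := Nat.mul_le_mul_left _ (Nat.pow_le_pow_left h5 3)
            _ = _ := by ring
        rw [sq_fac hq] at hge
        have h7 : (q + 1) ^ 4 * ((q - 1) ^ 4 * q ^ 12) < (q + 1) ^ 4 * (524288 * (q + 1) ^ 8) := by
          calc (q + 1) ^ 4 * ((q - 1) ^ 4 * q ^ 12) = (q + 1) ^ 4 * (q - 1) ^ 4 * q ^ 12 := by ring
            _ ≤ _ := hge
            _ < _ := h3
            _ ≤ _ := h6
        have h8 := Nat.lt_of_mul_lt_mul_left h7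
        have h9 : (7 * (q + 1)) ^ 8 ≤ (8 * q) ^ 8 := Nat.pow_le_pow_left (by omega) 8
        have h10 : (7 * (q + 1)) ^ 8 = 5764801 * (q + 1) ^ 8 := by ring
        have h11 : (8 * q) ^ 8 = 16777216 * q ^ 8 := by ring
        have h12 : 1296 * 2401 ≤ (q - 1) ^ 4 * q ^ 4 :=
          Nat.mul_le_mul (show 6 ^ 4 ≤ (q - 1) ^ 4 from Nat.pow_le_pow_left (by omega) 4)
            (show 7 ^ 4 ≤ q ^ 4 from Nat.pow_le_pow_left hq7 4)
        have h13 : (q - 1) ^ 4 * q ^ 12 = q ^ 8 * ((q - 1) ^ 4 * q ^ 4) := by ring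
        have h14 : q ^ 8 * (1296 * 2401) ≤ q ^ 8 * ((q - 1) ^ 4 * q ^ 4) := Nat.mul_le_mul_left _ h12
        have h15 : 0 < q ^ 8 := pow_pos (by omega) 8
        omega
  rw [P_card hY hw hwp hw2] at hAM
  by_cases hws : w ∣ (p ^ f) ^ 2 - 1
  · have h2 : P w ((p ^ f) ^ 2 - 1) ≤ p ^ f + 1 := by
      have := P_sq_sub_one_le (q := p ^ f) (j := 1) hw hw2 hq le_rfl
      simpa using this
    have h3 : P w (Nat.factorial 4) ≤ 3 := by
      have h8 : Nat.factorial 4 = 24 := by decide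
      by_cases h3' : w = 3
      · subst h3'
        have h7 := P_pow_self (r := 3) (k := 1) (a := 8) Nat.prime_three (by norm_num)
        norm_num at h7
        rw [h8, h7]
      · rw [not_dvd_fac hw hw2 h3' le_rfl]; norm_num
    rw [P_AA_small hw hwq hws hq] at hAM
    have h4 : P w M' ≤ (p ^ f + 1) ^ 4 * 3 := hAM.trans (Nat.mul_le_mul (Nat.pow_le_pow_left h2 4) h3)
    have h5 : M' < ((p ^ f + 1) ^ 4 * 3) ^ 3 := hlt.trans_le (Nat.pow_le_pow_left h4 3)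
    have hq5 : 5 ≤ p ^ f := by
      by_contra h
      have h6 : p ^ f = 3 := by obtain ⟨c, hc⟩ := ho; omega
      rw [h6] at hws
      have h7 : w ∣ 2 ^ 3 := hws
      exact hw2 ((Nat.prime_dvd_prime_iff_eq hw Nat.prime_two).1 (hw.dvd_of_dvd_pow h7))
    generalize p ^ f = q at *
    rw [sq_fac hq] at hge
    have h7 : (q + 1) ^ 4 * ((q - 1) ^ 4 * q ^ 12) < (q + 1) ^ 4 * (216 * (q + 1) ^ 8) := by
      calc (q + 1) ^ 4 * ((q - 1) ^ 4 * q ^ 12) = (q + 1) ^ 4 * (q - 1) ^ 4 * q ^ 12 := by ring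
        _ ≤ 8 * M' := hge.trans hle
        _ < 8 * ((q + 1) ^ 4 * 3) ^ 3 := by omega
        _ = _ := by ring
    have h8 := Nat.lt_of_mul_lt_mul_left h7
    have h9 : (5 * (q + 1)) ^ 8 ≤ (6 * q) ^ 8 := Nat.pow_le_pow_left (by omega) 8
    have h10 : (5 * (q + 1)) ^ 8 = 390625 * (q + 1) ^ 8 := by ring
    have h11 : (6 * q) ^ 8 = 1679616 * q ^ 8 := by ring
    have h12 : 256 * 625 ≤ (q - 1) ^ 4 * q ^ 4 :=
      Nat.mul_le_mul (show 4 ^ 4 ≤ (q - 1) ^ 4 from Nat.pow_le_pow_left (by omega) 4)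
        (show 5 ^ 4 ≤ q ^ 4 from Nat.pow_le_pow_left hq5 4)
    have h13 : (q - 1) ^ 4 * q ^ 12 = q ^ 8 * ((q - 1) ^ 4 * q ^ 4) := by ring
    have h14 : q ^ 8 * (256 * 625) ≤ q ^ 8 * ((q - 1) ^ 4 * q ^ 4) := Nat.mul_le_mul_left _ h12
    have h15 : 0 < q ^ 8 := pow_pos (by omega) 8
    omega
  · have h2 := P_le_other_four hw hw2 hwq hws hq
    have h5 : M' < (((p ^ f) ^ 2 + 1) ^ 2) ^ 3 := hlt.trans_le (Nat.pow_le_pow_left (hAM.trans h2) 3)
    generalize p ^ f = q at *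
    have h6 : ((q ^ 2 + 1) ^ 2) ^ 3 = (q ^ 2 + 1) ^ 6 := by ring
    have hq9 : 9 ≤ q ^ 2 := by
      calc 9 = 3 ^ 2 := by norm_num
        _ ≤ q ^ 2 := Nat.pow_le_pow_left hq3 2
    have h7 : (9 * (q ^ 2 + 1)) ^ 6 ≤ (10 * q ^ 2) ^ 6 := Nat.pow_le_pow_left (by omega) 6
    have h8 : (9 * (q ^ 2 + 1)) ^ 6 = 531441 * (q ^ 2 + 1) ^ 6 := by ring
    have h9 : (10 * q ^ 2) ^ 6 = 1000000 * q ^ 12 := by ring
    have h10 : 4096 ≤ (q ^ 2 - 1) ^ 4 := by
      calc 4096 = 8 ^ 4 := by norm_num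
        _ ≤ _ := Nat.pow_le_pow_left (by omega) 4
    have h11 : 4096 * q ^ 12 ≤ (q ^ 2 - 1) ^ 4 * q ^ 12 := Nat.mul_le_mul_right _ h10
    have h12 : 0 < q ^ 12 := pow_pos (by omega) 12
    omega

/-! ### the kernel, `n = 4` -/

theorem chk_17 : ∀ c ∈ List.range' 1 5, ¬ 17 ∣ 3 ^ c - 1 := by decide

theorem chk_41' : ∀ c ∈ List.range' 1 14, ¬ 41 ∣ 2 ^ c - 1 := by decide

/-- the kernel is a `p`-group -/
theorem kernel_four (hY : Real (.C 4) p f M) (hκ : κ ∣ M)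
    (h : ∀ v : ℕ, v.Prime → v ≠ p → v ∣ κ → (p ^ f = 3 ∧ v = 2) ∨ (p ^ f = 2 ∧ v = 3))
    (hT : ∀ t : ℕ, t.Prime → T 4 (p ^ f) ∣ t ^ κ.factorization t - 1) : ∀ v : ℕ, v.Prime → v ≠ p → ¬ v ∣ κ := by
  intro v hv hvp hvκ
  have hM0 := hY.M_ne
  have hκ0 : κ ≠ 0 := fun h0 => hM0 (by rw [h0] at hκ; exact Nat.eq_zero_of_zero_dvd hκ)
  have hc := hv.factorization_pos_of_dvd hκ0 hvκ
  have h1 := hT v hv
  have h2 : P v κ ≤ P v M := P_mono hv hM0 hκ
  rcases h v hv hvp hvκ with ⟨h3, rfl⟩ | ⟨h3, rfl⟩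
  · have h4 := two_mul_P_two hY hvp
    have ho : Odd 3 := by decide
    rw [h3, P_AA_two (by norm_num) ho, P_two_fac_four] at h4
    have h8 : P 2 (3 ^ 2 - 1) = 8 := by
      have h := P_pow_self (r := 2) (k := 3) (a := 1) Nat.prime_two (by norm_num)
      norm_num at h ⊢
      exact h
    rw [h8] at h4
    have h5 : κ.factorization 2 < 15 := by
      by_contra h6
      have h7 : 2 ^ 15 ≤ 2 ^ κ.factorization 2 := Nat.pow_le_pow_right (by norm_num) (by omega)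
      rw [P] at h2
      norm_num at h4 h7
      omega
    have h41 : T 4 3 = 41 := by decide
    rw [h3, h41] at h1
    exact chk_41' _ (List.mem_range'_1.2 ⟨by omega, by omega⟩) h1
  · have h4 := P_card_le hY hv hvp
    rw [h3, AA_four_two] at h4
    have h9 : P 3 722925 = 3 ^ 5 := by
      have h7 := P_pow_self (r := 3) (k := 5) (a := 2975) Nat.prime_three (by norm_num)
      norm_num at h7 ⊢
      exact h7
    rw [h9] at h4
    have h5 : κ.factorization 3 < 6 := by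
      by_contra h6
      have h7 : 3 ^ 6 ≤ 3 ^ κ.factorization 3 := Nat.pow_le_pow_right (by norm_num) (by omega)
      rw [P] at h2
      norm_num at h4 h7
      omega
    have h17 : T 4 2 = 17 := by decide
    rw [h3, h17] at h1
    exact chk_17 _ (List.mem_range'_1.2 ⟨by omega, by omega⟩) h1

end Cfsg.Agent.H365.CS
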