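import Mathlib
import Cfsg.Agent.H365.CS.FourC
import Cfsg.Agent.OrdDiv.Main

/-!
# The alternating and the sporadic groups (helper365)
-/

set_option autoImplicit false

namespace Cfsg.Agent.H365.CS

open Finset Cfsg Cfsg.Agent.H902.Art Cfsg.Agent.H902.Lte Cfsg.Agent.H364.SpVal Cfsg.Agent.H365.TorSp

variable {n k q p f M m c : ℕ}

/-- the prime divisors of `T` -/
theorem prime_T (hn : n = 2 ^ k) (hn4 : 4 ≤ n) (hq : 2 ≤ q) {r : ℕ} (hr : r.Prime) (hrT : r ∣ T n q) :
    2 * n ∣ r - 1 ∧ 2 * n < r ∧ r ≠ 2 := by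
  have hne : Even n := by
    rw [hn]; exact (Nat.even_pow.2 ⟨even_two, by rintro rfl; omega⟩)
  have hr2 : r ≠ 2 := by
    rintro rfl
    exact (Nat.not_even_iff_odd.2 (odd_T hq (by omega) hne)) (even_iff_two_dvd.2 hrT)
  have ho := order_eq hn hr hr2 (hrT.trans (T_dvd hq (by omega)))
  have := Fact.mk hr
  have h1 : (q : ZMod r) ≠ 0 := by
    intro h
    rw [h, orderOf_zero] at ho
    omega
  have h2 : orderOf ((q : ℕ) : ZMod r) ∣ r - 1 := orderOf_dvd_of_pow_eq_one (ZMod.pow_card_sub_one_eq_one h1)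
  rw [ho] at h2
  have h3 := hr.two_le
  have := Nat.le_of_dvd (by omega) h2
  exact ⟨h2, by omega, hr2⟩

theorem even_n (hn : n = 2 ^ k) (hn4 : 4 ≤ n) : Even n := by
  rw [hn]; exact (Nat.even_pow.2 ⟨even_two, by rintro rfl; omega⟩)

/-- `T` is not the product of two consecutive odd numbers -/
theorem T_ne (hn : n = 2 ^ k) (hn4 : 4 ≤ n) (hq : 2 ≤ q) (hm : 2 ≤ m) : T n q ≠ m * (m - 2) := by
  intro h
  obtain ⟨x, rfl⟩ : ∃ x, m = x + 2 := ⟨m - 2, by omega⟩
  rw [Nat.add_sub_cancel] at h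
  have h0 : T n q + 1 = (x + 1) ^ 2 := by rw [h]; ring
  have h4 : ∀ y : ℕ, y ^ 2 % 4 ≠ 2 := by
    intro y
    have : y % 4 = 0 ∨ y % 4 = 1 ∨ y % 4 = 2 ∨ y % 4 = 3 := by omega
    rcases this with h | h | h | h <;> simp [Nat.pow_mod, h]
  obtain ⟨j, hj⟩ := even_n hn hn4
  rcases Nat.even_or_odd q with he | ho
  · rw [T_even he hq] at h0
    obtain ⟨c, hc⟩ := he
    have h1 : q ^ n = 4 * (c ^ 2 * q ^ (n - 2)) := by
      have : q ^ n = q ^ 2 * q ^ (n - 2) := by rw [← pow_add]; congr 1; omega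
      rw [this, hc]; ring
    have h2 := h4 (x + 1)
    omega
  · have h1 := two_mul_T ho hq (show 1 ≤ n by omega)
    obtain ⟨c, hc⟩ := ho.pow (n := j)
    have h2 : q ^ n = 8 * (c * (c + 1) / 2) + 1 := by
      have h5 : 2 ∣ c * (c + 1) := (Nat.even_mul_succ_self c).two_dvd
      obtain ⟨d, hd⟩ := h5
      rw [hd, Nat.mul_div_cancel_left _ (by norm_num), hj, pow_add, hc]
      have : (2 * c + 1) * (2 * c + 1) = 4 * (c * (c + 1)) + 1 := by ring
      rw [this, hd]; ring
    have h3 := h4 (x + 1)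
    omega

/-- `T` divides `m!`, and all its primes are `≥ m - 2` -/
theorem T_le (hn : n = 2 ^ k) (hn4 : 4 ≤ n) (hq : 2 ≤ q) (hT : T n q ∣ m.factorial)
    (hprime : ∀ r : ℕ, r.Prime → r ∣ T n q → m < r + 3) : T n q ≤ m := by
  have hodd : Odd (T n q) := odd_T hq (by omega) (even_n hn hn4)
  have hT1 : 1 < T n q := by
    have h1 := le_T hq (show 1 ≤ n by omega)
    have h2 : 2 ^ 4 ≤ q ^ n := (Nat.pow_le_pow_right (by norm_num) hn4).trans (Nat.pow_le_pow_left hq n)
    omega
  have hle : ∀ r : ℕ, r.Prime → r ∣ T n q → r ≤ m := fun r hr h => (hr.dvd_factorial).1 (h.trans hT)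
  obtain ⟨r0, hr0, hr0T⟩ := Nat.exists_prime_and_dvd hT1.ne'
  have hm9 : 9 ≤ m := by
    have := (prime_T hn hn4 hq hr0 hr0T).2.1
    have := hle r0 hr0 hr0T
    omega
  obtain ⟨x, rfl⟩ : ∃ x, m = x + 3 := ⟨m - 3, by omega⟩
  -- coprimality
  have hgen : ∀ a : ℕ, (∀ r : ℕ, r.Prime → r ∣ T n q → ¬ r ∣ a) → (T n q).Coprime a := fun a ha =>
    Nat.coprime_of_dvd fun r hr h1 h2 => ha r hr h1 h2
  have hc1 : (T n q).Coprime x.factorial := hgen _ fun r hr h1 h2 => by
    have := (hr.dvd_factorial).1 h2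
    have := hprime r hr h1
    omega
  have h1 : T n q ∣ (x + 3) * (x + 2) * (x + 1) := by
    have h2 : (x + 3).factorial = (x + 3) * (x + 2) * (x + 1) * x.factorial := by
      rw [Nat.factorial_succ, Nat.factorial_succ, Nat.factorial_succ]; ring
    rw [h2] at hT
    exact hc1.dvd_of_dvd_mul_right hT
  have hr3 : ∀ r : ℕ, r.Prime → r ∣ T n q → 9 ≤ r ∧ r % 2 = 1 := fun r hr h => by
    have h2 := (prime_T hn hn4 hq hr h).2
    have h3 := hr.eq_two_or_odd.resolve_left h2.2
    omega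
  rcases Nat.even_or_odd x with he | ho
  · -- the degree is odd
    obtain ⟨y, hy⟩ := he
    have hc2 : (T n q).Coprime (x + 2) := hgen _ fun r hr h2 h3 => by
      have h4 := hprime r hr h2
      have h5 := hr3 r hr h2
      obtain ⟨c, hc⟩ := h3
      have h6 : r ≤ x + 2 := Nat.le_of_dvd (by omega) ⟨c, hc⟩
      have h7 : c = 1 := by
        have : c < 2 := by
          by_contra h8
          have : r * 2 ≤ r * c := Nat.mul_le_mul_left _ (by omega)
          omega
        have : c ≠ 0 := by rintro rfl; omega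
        omega
      subst h7
      omega
    have h2 : T n q ∣ (x + 3) * (x + 1) := by
      have : (x + 3) * (x + 2) * (x + 1) = (x + 2) * ((x + 3) * (x + 1)) := by ring
      rw [this] at h1
      exact hc2.dvd_of_dvd_mul_left h1
    obtain ⟨a, b, ha, hb, hab⟩ := (Nat.dvd_mul).1 h2
    have haT : a ∣ T n q := Dvd.intro _ hab
    have hbT : b ∣ T n q := Dvd.intro_left _ hab
    have key : ∀ d e : ℕ, d ∣ T n q → d ∣ e → x + 1 ≤ e → e ≤ x + 3 → d = 1 ∨ d = e := by
      intro d e hd hde he1 he2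
      by_cases hd1 : d = 1
      · exact Or.inl hd1
      · right
        obtain ⟨r, hr, hrd⟩ := Nat.exists_prime_and_dvd hd1
        have h3 := hprime r hr (hrd.trans hd)
        have h4 := Nat.le_of_dvd (Nat.pos_of_dvd_of_pos hd (by omega)) hrd
        obtain ⟨c, hc⟩ := hde
        have h7 : c = 1 := by
          have : c < 2 := by
            by_contra h8
            have : d * 2 ≤ d * c := Nat.mul_le_mul_left _ (by omega)
            omega
          have : c ≠ 0 := by rintro rfl; omega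
          omega
        rw [hc, h7, mul_one]
    rcases key a (x + 3) haT ha (by omega) (by omega) with h3 | h3 <;>
      rcases key b (x + 1) hbT hb (by omega) (by omega) with h4 | h4
    · rw [h3, h4] at hab; omega
    · rw [h3, h4] at hab; omega
    · rw [h3, h4] at hab; omega
    · exfalso
      rw [h3, h4] at hab
      exact T_ne (m := x + 3) hn hn4 hq (by omega) (by rw [← hab]; congr 1)
  · -- the degree is even
    obtain ⟨y, hy⟩ := ho
    have hc2 : ∀ e : ℕ, e = x + 1 ∨ e = x + 3 → (T n q).Coprime e := fun e he => hgen _ fun r hr h2 h3 => by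
      have h4 := hprime r hr h2
      have h5 := hr3 r hr h2
      obtain ⟨c, hc⟩ := h3
      have h7 : c = 1 := by
        have : c < 2 := by
          by_contra h8
          have : r * 2 ≤ r * c := Nat.mul_le_mul_left _ (by omega)
          omega
        have : c ≠ 0 := by rintro rfl; omega
        omega
      subst h7
      omega
    have h2 : T n q ∣ x + 2 := by
      have : (x + 3) * (x + 2) * (x + 1) = (x + 3) * ((x + 2) * (x + 1)) := by ring
      rw [this] at h1
      exact (hc2 _ (Or.inl rfl)).dvd_of_dvd_mul_right ((hc2 _ (Or.inr rfl)).dvd_of_dvd_mul_left h1)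
    exact (Nat.le_of_dvd (by omega) h2).trans (by omega)

/-! ### the size of the factorial -/

theorem AA_le (n : ℕ) : AA n q ≤ q ^ (n * (n + 1)) := by
  induction n with
  | zero => simp [AA]
  | succ n ih =>
    rw [AA_succ]
    have h1 : (n + 1) * (n + 1 + 1) = n * (n + 1) + 2 * (n + 1) := by ring
    rw [h1, pow_add]
    exact Nat.mul_le_mul ih (Nat.sub_le _ _)

theorem card_le (hY : Real (.C n) p f M) : M ≤ ((p ^ f) ^ n) ^ (2 * n + 1) := by
  have hq := hY.q_ge
  have h1 := hY.eq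
  have h2 : M ≤ dd (.C n) (p ^ f) * M := Nat.le_mul_of_pos_left _ (Nat.pos_of_ne_zero hY.dd_ne)
  rw [h1] at h2
  refine h2.trans ?_
  calc (p ^ f) ^ NN (.C n) * AA n (p ^ f) ≤ (p ^ f) ^ (n ^ 2) * (p ^ f) ^ (n * (n + 1)) :=
        Nat.mul_le_mul_left _ (AA_le n)
    _ = _ := by rw [← pow_add, ← pow_mul (p ^ f) n]; congr 1; ring

theorem T_ge (hn : n = 2 ^ k) (hn4 : 4 ≤ n) (hq : 2 ≤ q) (h : ¬ (n = 4 ∧ q = 2)) : 8 * n + 6 ≤ T n q := by
  by_cases hq2 : q = 2
  · subst hq2
    rw [T_even even_two le_rfl]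
    have hn8 : 8 ≤ n := by
      have h2 : k ≠ 2 := by
        rintro rfl
        exact h ⟨by omega, rfl⟩
      have h3 : 3 ≤ k := by
        by_contra h4
        have : k = 0 ∨ k = 1 := by omega
        rcases this with rfl | rfl <;> norm_num at hn <;> omega
      rw [hn]
      exact (show 8 = 2 ^ 3 by norm_num) ▸ Nat.pow_le_pow_right (by norm_num) h3
    clear h hn hn4
    induction n, hn8 using Nat.le_induction with
    | base => norm_num
    | succ n hn ih => rw [pow_succ]; omega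
  · have h1 := le_T hq (show 1 ≤ n by omega)
    have h2 : 3 ^ n ≤ q ^ n := Nat.pow_le_pow_left (by omega) n
    have h3 : 16 * n + 12 ≤ 3 ^ n + 1 := by
      clear h hn h1 h2
      induction n, hn4 using Nat.le_induction with
      | base => norm_num
      | succ n hn ih => rw [pow_succ]; omega
    omega

/-- **no alternating group** -/
theorem alt_false (hY : Real (.C n) p f M) (hn : n = 2 ^ k) (hn4 : 4 ≤ n) (hc : 2 * c = m.factorial) (hcM : c ∣ M)
    (hT : T n (p ^ f) ∣ c) (hprime : ∀ r : ℕ, r.Prime → r ∣ T n (p ^ f) → m < r + 3) : False := by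
  have hq := hY.q_ge
  have hM0 := Nat.pos_of_ne_zero hY.M_ne
  have hTm : T n (p ^ f) ≤ m := T_le hn hn4 hq (hc ▸ hT.trans (Dvd.intro_left _ rfl)) hprime
  have h1 : (T n (p ^ f)).factorial ≤ 2 * M := by
    calc (T n (p ^ f)).factorial ≤ m.factorial := Nat.factorial_le hTm
      _ = 2 * c := hc.symm
      _ ≤ 2 * M := Nat.mul_le_mul_left _ (Nat.le_of_dvd hM0 hcM)
  by_cases h42 : n = 4 ∧ p ^ f = 2
  · obtain ⟨h4, h2⟩ := h42
    subst h4
    have h3 : M = 2 ^ 16 * 722925 := by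
      have h5 := hY.eq
      rw [show dd (.C 4) (p ^ f) = Nat.gcd 2 (p ^ f - 1) from rfl, show num (.C 4) (p ^ f) = AA 4 (p ^ f) from rfl,
        show NN (.C 4) = 16 from rfl, h2, AA_four_two] at h5
      norm_num at h5
      norm_num
      exact h5
    rw [h2, show T 4 2 = 17 by decide] at h1
    rw [h3] at h1
    revert h1
    decide
  · have h2 := T_ge hn hn4 hq h42
    have h3 := card_le hY
    have h4 := le_T hq (show 1 ≤ n by omega)
    obtain ⟨t, ht⟩ : ∃ t, t = T n (p ^ f) := ⟨_, rfl⟩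
    rw [← ht] at h1 h2 h4
    obtain ⟨s, hs⟩ : ∃ s, t = s + (4 * n + 4) := ⟨t - (4 * n + 4), by omega⟩
    have h5 := Nat.factorial_mul_pow_le_factorial (m := s) (n := 4 * n + 4)
    rw [← hs] at h5
    have h6 : 2 * t ≤ (s + 1) ^ 2 := by
      have h7 : t ≤ 2 * (s + 1) := by omega
      have h8 : 8 ≤ t := by omega
      nlinarith
    have h7 : (2 * t) ^ (2 * n + 2) ≤ t.factorial := by
      calc (2 * t) ^ (2 * n + 2) ≤ ((s + 1) ^ 2) ^ (2 * n + 2) := Nat.pow_le_pow_left h6 _
        _ = (s + 1) ^ (4 * n + 4) := by rw [← pow_mul]; congr 1; ring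
        _ ≤ s.factorial * (s + 1) ^ (4 * n + 4) := Nat.le_mul_of_pos_left _ (Nat.factorial_pos s)
        _ ≤ _ := h5
    have h8 : M ≤ (2 * t) ^ (2 * n + 1) := h3.trans (Nat.pow_le_pow_left (by omega) _)
    have h9 : (2 * t) ^ (2 * n + 2) = (2 * t) ^ (2 * n + 1) * (2 * t) := pow_succ _ _
    have h10 : (2 * t) ^ (2 * n + 1) * 3 ≤ (2 * t) ^ (2 * n + 1) * (2 * t) := Nat.mul_le_mul_left _ (by omega)
    have h11 : 0 < (2 * t) ^ (2 * n + 1) := pow_pos (by omega) _
    omega

/-! ### the sporadic groups -/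

/-- the primes of the sporadic groups not `≡ 1` modulo `8` -/
def pl : List ℕ := [2, 3, 5, 7, 11, 13, 19, 23, 29, 31, 37, 43, 47, 59, 67, 71]

theorem chk_pl : ∀ r ∈ pl, ¬ 8 ∣ r - 1 ∧ r ≠ 1 := by decide

theorem prime_pl : ∀ r ∈ pl, r.Prime := by
  intro r hr
  simp only [pl, List.mem_cons, List.not_mem_nil, or_false] at hr
  rcases hr with rfl | rfl | rfl | rfl | rfl | rfl | rfl | rfl | rfl | rfl | rfl | rfl | rfl | rfl | rfl | rfl <;>
    norm_num

theorem chk_spor : ∀ x ∈ OrdDiv.spor, x.2 ∣ pl.prod ^ 46 * 697 := by decide +kernel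

theorem chk_spor2 : ∀ x ∈ OrdDiv.spor, ¬ (17 ∣ x.2 ∧ x.2 ∣ 47377612800) ∧ ¬ (41 ∣ x.2 ∧ x.2 ∣ 65784756654489600) := by
  decide +kernel

theorem T_697 (hn : n = 2 ^ k) (hn4 : 4 ≤ n) (hq : 2 ≤ q) (h : T n q ∣ 697) :
    n = 4 ∧ (q = 2 ∨ q = 3) := by
  have h1 := le_T hq (show 1 ≤ n by omega)
  have h2 := Nat.le_of_dvd (by norm_num) h
  have hn4' : n = 4 := by
    by_contra h3
    have hn8 : 8 ≤ n := by
      have h4 : 3 ≤ k := by
        by_contra h4
        have : k = 0 ∨ k = 1 ∨ k = 2 := by omega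
        rcases this with rfl | rfl | rfl <;> norm_num at hn <;> omega
      rw [hn]
      exact (show 8 = 2 ^ 3 by norm_num) ▸ Nat.pow_le_pow_right (by norm_num) h4
    by_cases hq2 : q = 2
    · subst hq2
      have hn9 : n < 10 := by
        by_contra h4
        have h5 : 2 ^ 10 ≤ 2 ^ n := Nat.pow_le_pow_right (by norm_num) (by omega)
        rw [T_even even_two le_rfl] at h2
        omega
      interval_cases n
      · revert h; decide
      · revert h; decide
    · have h4 : 3 ^ 8 ≤ q ^ n := (Nat.pow_le_pow_right (by norm_num) hn8).trans (Nat.pow_le_pow_left (by omega) n)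
      omega
  subst hn4'
  refine ⟨rfl, ?_⟩
  have hq7 : q < 7 := by
    by_contra h3
    have : 7 ^ 4 ≤ q ^ 4 := Nat.pow_le_pow_left (by omega) 4
    omega
  interval_cases q
  · simp
  · simp
  · revert h; decide
  · revert h; decide
  · revert h; decide

/-- **no sporadic group** -/
theorem spor_false (hY : Real (.C n) p f M) (hn : n = 2 ^ k) (hn4 : 4 ≤ n) {x : OrdDiv.Grp × ℕ} (hx : x ∈ OrdDiv.spor)
    (hcM : x.2 ∣ M) (hT : T n (p ^ f) ∣ x.2) : False := by
  have hq := hY.q_ge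
  have h1 : (T n (p ^ f)).Coprime (pl.prod ^ 46) := by
    apply Nat.Coprime.pow_right
    rw [Nat.coprime_list_prod_right_iff]
    intro r hr
    rw [Nat.coprime_comm, (prime_pl r hr).coprime_iff_not_dvd]
    intro hrT
    have h2 := (prime_T hn hn4 hq (prime_pl r hr) hrT).1
    apply (chk_pl r hr).1
    refine Dvd.dvd.trans ?_ h2
    obtain ⟨j, rfl⟩ : ∃ j, k = j + 2 := ⟨k - 2, by
      have : 2 ≤ k := by
        by_contra h4
        have : k = 0 ∨ k = 1 := by omega
        rcases this with rfl | rfl <;> norm_num at hn <;> omega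
      omega⟩
    exact ⟨2 ^ j, by rw [hn]; ring⟩
  have h2 : T n (p ^ f) ∣ 697 := h1.dvd_of_dvd_mul_left (hT.trans (chk_spor x hx))
  obtain ⟨rfl, h3⟩ := T_697 hn hn4 hq h2
  have h5 := hY.eq
  rw [show dd (.C 4) (p ^ f) = Nat.gcd 2 (p ^ f - 1) from rfl, show num (.C 4) (p ^ f) = AA 4 (p ^ f) from rfl,
    show NN (.C 4) = 16 from rfl] at h5
  rcases h3 with h3 | h3
  · rw [h3, AA_four_two] at h5
    rw [h3, show T 4 2 = 17 by decide] at hT
    refine (chk_spor2 x hx).1 ⟨hT, ?_⟩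
    norm_num at h5
    rwa [h5] at hcM
  · rw [h3, AA_four_three] at h5
    rw [h3, show T 4 3 = 41 by decide] at hT
    refine (chk_spor2 x hx).2 ⟨hT, ?_⟩
    have h6 : M = 65784756654489600 := by
      norm_num at h5
      omega
    rwa [h6] at hcM

end Cfsg.Agent.H365.CS
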