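import Mathlib
import Cfsg.Agent.H365.CS.FourC
import Cfsg.Agent.H364.SpShape

/-!
# The natural characteristic (helper365)
-/

set_option autoImplicit false

namespace Cfsg.Agent.H365.CS

open Finset Cfsg Cfsg.Agent.H902.Art Cfsg.Agent.H902.Lte Cfsg.Agent.H364.SpVal Cfsg.Agent.H365.TorSp
open Cfsg.Agent.H365.Near Cfsg.Agent.H364.SpShape

variable {n k p f M κ M' i : ℕ}

/-- **The shape in the natural characteristic** (variant of `SpShape.same_char`) -/
theorem shape {X : Sh} {g n j δ r s : ℕ} (hX : Real X p g M') (hY : Real (.C n) p f M) (hn : 3 ≤ n) (hdvd : M' ∣ M)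
    (hr : r.Prime) (hro : orderOf (p : ZMod r) = f * (2 * n)) (hrM : r ∣ M')
    (hs : s.Prime) (hso : orderOf (p : ZMod s) = f * (2 * n - 2)) (hsM : s ∣ M')
    (hexp : g * NN X + 2 * n * f * j + δ = f * n ^ 2) (hδ : 2 * δ < f * (2 * n)) : M' = M := by
  have hf := hY.hf
  have hg := hX.hf
  have hDY : DM (.C n) = 2 * n := rfl
  have h3n : f * 3 ≤ f * n := Nat.mul_le_mul_left f hn
  have hG6 : 6 ≤ f * DM (.C n) := by rw [hDY]; nlinarith
  have hD : g * DM X = f * DM (.C n) := by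
    rcases D_cases hX hY hdvd hr (by rw [hDY]; exact hro) (by omega) hrM with h | ⟨-, -, h⟩
    · exact h
    · omega
  have hge := (DM_ge hX).1
  -- the invariant `kap`
  have h1 : 4 * (g * NN X) = (g * DM X) * kap X := by
    calc 4 * (g * NN X) = g * (4 * NN X) := by ring
      _ = _ := by rw [four_NN hX]; ring
  rw [hD, hDY] at h1
  rw [hDY] at hG6
  have hk2 := kap_even hX
  have hk : kap X + 4 * j = 2 * n ∧ δ = 0 := by
    have h2 : f * (2 * n) * (kap X + 4 * j) + 4 * δ = f * (2 * n) * (2 * n) := by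
      have e : 4 * (g * NN X + 2 * n * f * j + δ) = 4 * (f * n ^ 2) := by rw [hexp]
      have e2 : f * (2 * n) * (kap X + 4 * j) + 4 * δ = f * (2 * n) * kap X + 4 * (2 * n * f * j) + 4 * δ := by ring
      have e3 : f * (2 * n) * (2 * n) = 4 * (f * n ^ 2) := by ring
      rw [e2, e3, ← h1, ← e]; ring
    generalize f * (2 * n) = G at *
    have hG0 : 0 < G := by omega
    have h3 : kap X + 4 * j ≤ 2 * n := by
      by_contra hcon
      have h4 : G * (2 * n + 1) ≤ G * (kap X + 4 * j) := Nat.mul_le_mul_left _ (by omega)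
      have h5 : G * (2 * n + 1) = G * (2 * n) + G := by ring
      omega
    have h6 : ¬ kap X + 4 * j < 2 * n := by
      intro hcon
      have h4 : G * (kap X + 4 * j + 2) ≤ G * (2 * n) := Nat.mul_le_mul_left _ (by omega)
      have h5 : G * (kap X + 4 * j + 2) = G * (kap X + 4 * j) + 2 * G := by ring
      omega
    have h7 : kap X + 4 * j = 2 * n := by omega
    refine ⟨h7, ?_⟩
    rw [h7] at h2
    omega
  obtain ⟨hk, rfl⟩ := hk
  -- the second exponent
  have hsp : s ≠ p := ne_of_order hs (show 1 ≤ f * (2 * n - 2) from Nat.mul_pos hf (by omega)) hso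
  have hB : (n - 1) * DM X ≤ n * BM X := by
    rcases hX.order_cases hs hsp hsM with h | ⟨e, he, heB, h⟩
    · exfalso
      rw [hso, hD, hDY] at h
      have h4 : 2 * n - 2 ∣ 2 * n := Nat.dvd_of_mul_dvd_mul_left hf h
      have h5 : 2 * n - 2 ∣ 2 := by
        have := Nat.dvd_sub h4 (dvd_refl (2 * n - 2))
        rwa [show 2 * n - (2 * n - 2) = 2 by omega] at this
      have := Nat.le_of_dvd (by norm_num) h5
      omega
    · rw [hso] at h
      have h4 : f * (2 * n - 2) ≤ g * BM X :=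
        (Nat.le_of_dvd (Nat.mul_pos hg he) h).trans (Nat.mul_le_mul_left _ heB)
      have h5 : f * (2 * n - 2) * DM X ≤ f * (2 * n) * BM X := by
        calc f * (2 * n - 2) * DM X ≤ g * BM X * DM X := Nat.mul_le_mul_right _ h4
          _ = g * DM X * BM X := by ring
          _ = _ := by rw [hD, hDY]
      obtain ⟨m, rfl⟩ : ∃ m, n = m + 1 := ⟨n - 1, by omega⟩
      rw [show 2 * (m + 1) - 2 = 2 * m by omega] at h5
      rw [Nat.add_sub_cancel]
      have h6 : (2 * f) * (m * DM X) ≤ (2 * f) * ((m + 1) * BM X) := by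
        calc (2 * f) * (m * DM X) = f * (2 * m) * DM X := by ring
          _ ≤ _ := h5
          _ = _ := by ring
      exact Nat.le_of_mul_le_mul_left h6 (by omega)
  have hj := shape_j hX hn hk hB
  subst hj
  have hN : f * NN (.C n) - g * NN X = 0 := by
    have : NN (.C n) = n ^ 2 := rfl
    rw [this]
    omega
  rcases near_out hX hY hdvd hr (by rw [hDY]; exact hro) (by rw [hDY]; omega) hrM (by rw [hN]; exact one_dvd _)
    (by rw [hN]; exact fun _ => one_dvd _) with ⟨rfl, rfl⟩ | h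
  · have h1 := hX.eq
    rw [← hY.eq] at h1
    exact Nat.eq_of_mul_eq_mul_left (Nat.pos_of_ne_zero hY.dd_ne) h1
  · exfalso
    simp only [Exc, Sh.C.injEq, reduceCtorEq, false_and, and_false, or_false, false_or, exists_false] at h
    obtain ⟨-, h, -⟩ := h
    omega


/-! ### the primes -/

/-- the large prime -/
theorem exists_r (hp : p.Prime) (hf : 1 ≤ f) (hn4 : 4 ≤ n) :
    ∃ r : ℕ, r.Prime ∧ r ∣ T n (p ^ f) ∧ orderOf (p : ZMod r) = f * (2 * n) := by
  have h8 : 4 ≤ f * n := by nlinarith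
  have h9 : f * (2 * n) = 2 * (f * n) := by ring
  obtain ⟨r, hr, ho⟩ := Cfsg.Agent.Lib.Zsigmondy.exists_prime_orderOf (a := p) (n := f * (2 * n)) hp.two_le (by omega)
    (by omega) (by rintro ⟨-, h6⟩; omega)
  have hq2 : 2 ≤ p ^ f := hp.two_le.trans (Nat.le_self_pow (by omega) p)
  have := Fact.mk hr
  have h1 : ((p : ZMod r) ^ f) ^ n * ((p : ZMod r) ^ f) ^ n = 1 := by
    rw [← pow_add, ← pow_mul, ← orderOf_dvd_iff_pow_eq_one, ho]
    exact ⟨1, by ring⟩
  have h2 : ((p : ZMod r) ^ f) ^ n = -1 := by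
    rcases mul_self_eq_one_iff.1 h1 with h2 | h2
    · exfalso
      rw [← pow_mul, ← orderOf_dvd_iff_pow_eq_one, ho] at h2
      have := Nat.le_of_dvd (by omega) h2
      omega
    · exact h2
  have hr2 : r ≠ 2 := by
    rintro rfl
    have h4 : ((p : ZMod 2) ^ f) ^ n = 1 := by rw [h2]; exact CharTwo.neg_eq 1
    rw [← pow_mul, ← orderOf_dvd_iff_pow_eq_one, ho] at h4
    have := Nat.le_of_dvd (by omega) h4
    omega
  have h3 : r ∣ (p ^ f) ^ n + 1 := by
    rw [← ZMod.natCast_eq_zero_iff]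
    push_cast
    rw [h2]; ring
  rw [← mul_T hq2 (by omega)] at h3
  refine ⟨r, hr, (hr.dvd_mul.1 h3).resolve_left fun h4 => hr2 ?_, ho⟩
  exact (Nat.prime_dvd_prime_iff_eq hr Nat.prime_two).1 (h4.trans (Nat.gcd_dvd_left 2 _))

/-- the second prime -/
theorem exists_s (hY : Real (.C n) p f M) (hn4 : 4 ≤ n) (h42 : ¬ (n = 4 ∧ p ^ f = 2)) :
    ∃ s : ℕ, s.Prime ∧ s ∣ M ∧ orderOf (p : ZMod s) = f * (2 * n - 2) ∧ s ≠ p ∧ 5 ≤ s := by
  have hp := hY.hp
  have hf := hY.hf
  have h8 : f * 4 ≤ f * n := Nat.mul_le_mul_left _ hn4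
  have h9 : f * (2 * n - 2) = 2 * (f * n) - 2 * f := by rw [Nat.mul_sub]; congr 1 <;> ring
  obtain ⟨s, hs, ho⟩ := Cfsg.Agent.Lib.Zsigmondy.exists_prime_orderOf (a := p) (n := f * (2 * n - 2)) hp.two_le
    (by omega) (by omega) (by
      rintro ⟨h2, h6⟩
      have hf1 : f = 1 := by omega
      subst hf1 h2
      exact h42 ⟨by omega, by norm_num⟩)
  have hq2 : 2 ≤ p ^ f := hp.two_le.trans (Nat.le_self_pow (by omega) p)
  have := Fact.mk hs
  have h1 : s ∣ (p ^ f) ^ (2 * (n - 2 + 1)) - 1 := by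
    have h3 : 1 ≤ (p ^ f) ^ (2 * (n - 2 + 1)) := Nat.one_le_pow _ _ (by omega)
    rw [← ZMod.natCast_eq_zero_iff, Nat.cast_sub h3]
    push_cast
    rw [← pow_mul, show f * (2 * (n - 2 + 1)) = f * (2 * n - 2) by congr 1; omega, ← ho, pow_orderOf_eq_one, sub_self]
  have hsM : s ∣ M := by
    rw [card_eq hY (by omega)]
    have h2 : (p ^ f) ^ (2 * (n - 2 + 1)) - 1 ∣ AA (n - 1) (p ^ f) := by
      rw [AA]
      exact Finset.dvd_prod_of_mem (fun i => (p ^ f) ^ (2 * (i + 1)) - 1) (Finset.mem_range.2 (show n - 2 < n - 1 by omega))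
    exact (((h1.trans h2).mul_left _).mul_right _).mul_right _
  have hne : (p : ZMod s) ≠ 0 := by
    intro h
    rw [h, orderOf_zero] at ho
    omega
  have h2 : orderOf (p : ZMod s) ∣ s - 1 := orderOf_dvd_of_pow_eq_one (ZMod.pow_card_sub_one_eq_one hne)
  rw [ho] at h2
  have h3 := Nat.le_of_dvd (by have := hs.two_le; omega) h2
  refine ⟨s, hs, hsM, ho, ?_, by omega⟩
  rintro rfl
  exact hne (ZMod.natCast_self s)

/-- **the natural characteristic** -/
theorem same_case {X : Sh} {g n' : ℕ} (hY : Real (.C n) p f M) (hX : Real X p g M') (hn : n = 2 ^ k) (hn4 : 4 ≤ n)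
    (hfac : κ * (M' * i) = M) (hn' : 1 < n') (hi : n' * i = 2 * n) (hT : T n (p ^ f) ∣ M')
    (hκT : ∀ t : ℕ, t.Prime → T n (p ^ f) ∣ t ^ κ.factorization t - 1)
    (hκ : ∀ v : ℕ, v.Prime → v ≠ p → v ∣ κ → (p ^ f = 3 ∧ v = 2) ∨ (p ^ f = 2 ∧ v = 3)) : M' = M := by
  have hq := hY.q_ge
  have hp := hY.hp
  have hf := hY.hf
  have hM0 := hY.M_ne
  have hκ0 : κ ≠ 0 := by rintro rfl; rw [zero_mul] at hfac; exact hM0 hfac.symm
  have hM'0 : M' ≠ 0 := by rintro rfl; rw [zero_mul, mul_zero] at hfac; exact hM0 hfac.symm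
  have hi0 : i ≠ 0 := by rintro rfl; rw [mul_zero, mul_zero] at hfac; exact hM0 hfac.symm
  have hdvd : M' ∣ M := ⟨i * κ, by rw [← hfac]; ring⟩
  obtain ⟨r, hr, hrT, hro⟩ := exists_r hp hf hn4
  have hin : i ≤ n := by
    have : 2 * i ≤ n' * i := Nat.mul_le_mul_right _ (by omega)
    omega
  have hi2 : i ∣ 2 ^ (k + 1) := Dvd.intro_left n' (by rw [hi, hn, pow_succ]; ring)
  -- the part of the kernel
  obtain ⟨j, hj⟩ : f * (2 * n) ∣ κ.factorization p := by
    have := Fact.mk hr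
    rw [← hro, orderOf_dvd_iff_pow_eq_one]
    have h1 := hrT.trans (hκT p hp)
    have h2 : 1 ≤ p ^ κ.factorization p := Nat.one_le_pow _ _ hp.pos
    rw [← ZMod.natCast_eq_zero_iff, Nat.cast_sub h2] at h1
    push_cast at h1 ⊢
    exact sub_eq_zero.1 h1
  have hexp : g * NN X + 2 * n * f * j + i.factorization p = f * n ^ 2 := by
    have h1 : M.factorization p = f * NN (.C n) := (P_prime_exp hY).symm
    have h2 : M'.factorization p = g * NN X := (P_prime_exp hX).symm
    rw [← hfac, Nat.factorization_mul hκ0 (Nat.mul_ne_zero hM'0 hi0), Nat.factorization_mul hM'0 hi0] at h1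
    simp only [Finsupp.add_apply] at h1
    rw [h2, hj] at h1
    have h3 : NN (.C n) = n ^ 2 := rfl
    rw [h3] at h1
    rw [← h1]; ring
  have hδ : 2 * i.factorization p < f * (2 * n) := by
    have h1 : i.factorization p < p ^ i.factorization p := Nat.lt_pow_self hp.one_lt
    have h2 : p ^ i.factorization p ≤ i := Nat.le_of_dvd (Nat.pos_of_ne_zero hi0) (Nat.ordProj_dvd i p)
    nlinarith
  by_cases h42 : n = 4 ∧ p ^ f = 2
  · -- `PSp(8,2)`
    obtain ⟨h4, h2⟩ := h42
    subst h4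
    have hp2 : p = 2 := (Nat.prime_dvd_prime_iff_eq hp Nat.prime_two).1 (h2 ▸ dvd_pow_self p (by omega))
    subst hp2
    have hf1 : f = 1 := Nat.pow_right_injective (le_refl 2) (by simpa using h2)
    subst hf1
    have hκ' := kernel_four hY (Dvd.intro _ hfac) hκ hκT
    have hi' : ∀ v : ℕ, v.Prime → v ≠ 2 → ¬ v ∣ i := fun v hv hv2 h =>
      hv2 ((Nat.prime_dvd_prime_iff_eq hv Nat.prime_two).1 (hv.dvd_of_dvd_pow (h.trans hi2)))
    by_cases hj0 : j = 0
    · subst hj0
      have hN16 : NN (.C 4) = 16 := rfl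
      have hD8 : DM (.C 4) = 8 := rfl
      have hδ2 : 2 * (1 * NN (.C 4) - g * NN X) < 1 * DM (.C 4) := by
        rw [hN16, hD8]
        omega
      rcases near hX hY hdvd hr (by rw [hro, hD8]) (by rw [hD8]; norm_num) (hrT.trans hT) hδ2 with ⟨rfl, rfl⟩ | h
      · have h3 : dd (.C 4) (2 ^ 1) * M' = dd (.C 4) (2 ^ 1) * M := by rw [hX.eq, hY.eq]
        exact Nat.eq_of_mul_eq_mul_left (Nat.pos_of_ne_zero hX.dd_ne) h3
      · exfalso
        rcases h with h | h | h | h | h | h | h | h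
        · exact absurd h.2.1 (by decide)
        · exact absurd h.2.1 (by decide)
        · obtain ⟨n, -, -, h, -⟩ := h
          cases h
        · exact absurd h.2.1 (by decide)
        · exact absurd h.2.1 (by decide)
        · exact absurd h.2.1 (by decide)
        · exact absurd h.2.1 (by decide)
        · exact absurd h.2.1 (by decide)
    · exfalso
      obtain ⟨A, hA⟩ : ∃ A, A = P 2 M' := ⟨_, rfl⟩
      obtain ⟨M'', hM''⟩ : A ∣ M' := by rw [hA]; exact P_dvd 2 _
      have h1 := AA_dvd_ev hY hfac hi' hκ' hM'' (Or.inr hA)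
      have hM''0 : 0 < M'' := Nat.pos_of_ne_zero (by rintro rfl; rw [mul_zero] at hM''; exact hM'0 hM'')
      have h2 := Nat.le_of_dvd hM''0 h1
      have hlt := hX.lt_cube
      rw [← hA] at hlt
      have hlt2 : M'' < A ^ 2 := by
        have h3 : A * M'' < A * A ^ 2 := by rw [← hM'']; calc M' < A ^ 3 := hlt
          _ = _ := by ring
        exact Nat.lt_of_mul_lt_mul_left h3
      have h3 : A ≤ 2 ^ 8 := by
        rw [hA, P, ← P_prime_exp hX]
        apply Nat.pow_le_pow_right (by norm_num)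
        omega
      have h4 : A ^ 2 ≤ (2 ^ 8) ^ 2 := Nat.pow_le_pow_left h3 2
      norm_num at h2 h4
      rw [AA_four_two] at h2
      omega
  · obtain ⟨s, hs, hsM, hso, hsp, hs5⟩ := exists_s hY hn4 h42
    refine shape (δ := i.factorization p) (j := j) hX hY (by omega) hdvd hr hro (hrT.trans hT) hs hso ?_ hexp hδ
    rw [← hfac] at hsM
    rcases hs.dvd_mul.1 hsM with h1 | h1
    · exfalso
      rcases hκ s hs hsp h1 with h2 | h2 <;> omega
    · rcases hs.dvd_mul.1 h1 with h2 | h2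
      · exact h2
      · exfalso
        have := (Nat.prime_dvd_prime_iff_eq hs Nat.prime_two).1 (hs.dvd_of_dvd_pow (h2.trans hi2))
        omega

end Cfsg.Agent.H365.CS
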