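import Mathlib
import Cfsg.Agent.H365.CS.Abel2
import Cfsg.Agent.H365.TorSp
import Cfsg.Agent.H431.CS.Defs
import Cfsg.Agent.S0033

/-!
# Groups with the order and the class sizes of `PSp(2n,q)`, `PΩ(2n+1,q)`, `n` a power of two: the torus (helper365)
-/

set_option autoImplicit false

namespace Cfsg.Agent.H365.CS

open Finset Cfsg Cfsg.Agent.H902.Art Cfsg.Agent.H364 Cfsg.Agent.H364.SpVal Cfsg.Agent.H365.TorSp Subgroup
open Cfsg.Agent.H431.CS Cfsg.Agent.H812.CS Cfsg.Agent.H370.AAM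

universe u v

/-! ### a congruence -/

theorem prod_two_pow {R : Type*} [CommRing R] : ∀ (k : ℕ) (x : R), x ^ (2 ^ k) = -1 →
    ∏ i ∈ range (2 ^ (k + 1) - 1), (1 - x ^ (i + 1)) = 2 ^ (k + 1) := by
  intro k
  induction k with
  | zero =>
    intro x hx
    have h1 : x = -1 := by simpa using hx
    subst h1
    norm_num
  | succ k ih =>
    intro x hx
    obtain ⟨N, hN⟩ : ∃ N, 2 ^ (k + 1) = N + 1 := ⟨2 ^ (k + 1) - 1, (Nat.sub_add_cancel Nat.one_le_two_pow).symm⟩
    have hx2 : (x ^ 2) ^ (2 ^ k) = -1 := by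
      rw [← pow_mul, ← pow_succ']; exact hx
    have h1 := ih (x ^ 2) hx2
    rw [hN, Nat.add_sub_cancel] at h1
    have h2 : 2 ^ (k + 1 + 1) - 1 = N + 1 + N := by rw [pow_succ, hN]; omega
    rw [hN] at hx
    rw [h2, Finset.prod_range_add, Finset.prod_range_succ, hx]
    have h3 : ∀ i ∈ range N, (1 - x ^ (N + 1 + i + 1)) = 1 + x ^ (i + 1) := by
      intro i _
      rw [show N + 1 + i + 1 = (N + 1) + (i + 1) by ring, pow_add, hx]; ring
    rw [Finset.prod_congr rfl h3]
    have h4 : (∏ i ∈ range N, (1 - x ^ (i + 1))) * (∏ i ∈ range N, (1 + x ^ (i + 1))) =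
        ∏ i ∈ range N, (1 - (x ^ 2) ^ (i + 1)) := by
      rw [← Finset.prod_mul_distrib]
      apply Finset.prod_congr rfl
      intro i _
      rw [← pow_mul, mul_comm 2, pow_mul]; ring
    rw [h1] at h4
    calc _ = 2 * ((∏ i ∈ range N, (1 - x ^ (i + 1))) * (∏ i ∈ range N, (1 + x ^ (i + 1)))) := by ring
      _ = _ := by rw [h4, pow_succ]; ring

/-- `|G| / T ≡ 2 n` modulo `T` -/
theorem modEq_T {n q k : ℕ} (hn : n = 2 ^ k) (hn2 : 2 ≤ n) (hq : 2 ≤ q) :
    q ^ (n ^ 2) * AA (n - 1) q * (q ^ n - 1) ≡ 2 * n [MOD T n q] := by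
  refine Nat.ModEq.of_dvd (T_dvd hq (by omega)) ?_
  rw [← ZMod.natCast_eq_natCast_iff]
  obtain ⟨j, rfl⟩ : ∃ j, k = j + 1 := by
    rcases k with _ | j
    · rw [hn] at hn2; norm_num at hn2
    · exact ⟨j, rfl⟩
  have hne : Even n := by rw [hn]; exact (Nat.even_pow.2 ⟨even_two, by omega⟩)
  have h1 : (q : ZMod (q ^ n + 1)) ^ n = -1 := by
    have := (ZMod.natCast_eq_zero_iff (q ^ n + 1) (q ^ n + 1)).2 dvd_rfl
    push_cast at this
    exact eq_neg_of_add_eq_zero_left this
  have h2 : (q : ZMod (q ^ n + 1)) ^ (n ^ 2) = 1 := by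
    rw [pow_two, pow_mul, h1, hne.neg_one_pow]
  have h3 : ((AA (n - 1) q : ℕ) : ZMod (q ^ n + 1)) = -(n : ZMod (q ^ n + 1)) := by
    have h4 : ((AA (n - 1) q : ℕ) : ZMod (q ^ n + 1)) =
        ∏ i ∈ range (n - 1), (-1) * (1 - ((q : ZMod (q ^ n + 1)) ^ 2) ^ (i + 1)) := by
      rw [AA, Nat.cast_prod]
      apply Finset.prod_congr rfl
      intro i _
      rw [Nat.cast_sub (Nat.one_le_pow _ _ (by omega)), ← pow_mul]; push_cast; ring
    have h5 := prod_two_pow j ((q : ZMod (q ^ n + 1)) ^ 2) (by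
      rw [← pow_mul, ← pow_succ', ← hn, h1])
    rw [← hn] at h5
    rw [h4, Finset.prod_mul_distrib, h5, Finset.prod_const, Finset.card_range]
    have h6 : Odd (n - 1) := by
      obtain ⟨c, hc⟩ := hne
      exact ⟨c - 1, by omega⟩
    rw [h6.neg_one_pow]
    have h7 : ∀ (R : Type) [CommRing R], ((n : ℕ) : R) = 2 ^ (j + 1) := by
      intro R _
      rw [hn]
      push_cast
      rfl
    rw [h7]; ring
  rw [Nat.cast_mul, Nat.cast_mul, Nat.cast_pow, h2, h3, Nat.cast_sub (Nat.one_le_pow _ _ (by omega))]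
  push_cast
  rw [h1]
  ring

/-! ### the hypotheses -/

/-- the hypotheses on `L` -/
structure HL (L : Type v) [Group L] (n p f : ℕ) : Prop where
  hY : Real (.C n) p f (Nat.card L)
  lat : ∀ r : ℕ, r.Prime → orderOf (((p ^ f : ℕ)) : ZMod r) = 2 * n → Lat L p r (((p ^ f) ^ n + 1) / Nat.gcd 2 (p ^ f - 1))
  ind : ∀ H : Subgroup L, H ≠ ⊤ → (p ^ f) ^ (2 * n - 1) ≤ 2 * H.index

variable {G : Type u} [Group G] [Finite G] {L : Type v} [Group L] [Finite L] {n k p f : ℕ}

omit [Finite L] in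
theorem one_lt_T (hn4 : 4 ≤ n) {q : ℕ} (hq : 2 ≤ q) : 16 < 2 * T n q ∧ 1 < T n q := by
  have hT := le_T hq (show 1 ≤ n by omega)
  have h1 : 2 ^ 4 ≤ q ^ n := (Nat.pow_le_pow_right (by norm_num) hn4).trans (Nat.pow_le_pow_left hq n)
  omega

/-- every prime divisor of `T` is larger than `2 n` -/
theorem lt_of_dvd_T {q : ℕ} (hn : n = 2 ^ k) (hn4 : 4 ≤ n) (hq : 2 ≤ q) {r : ℕ} (hr : r.Prime) (hrT : r ∣ T n q) :
    orderOf ((q : ℕ) : ZMod r) = 2 * n ∧ 2 * n < r ∧ r ≠ 2 := by
  have hne : Even n := by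
    rw [hn]; exact (Nat.even_pow.2 ⟨even_two, by rintro rfl; omega⟩)
  have hr2 : r ≠ 2 := by
    rintro rfl
    exact (Nat.not_even_iff_odd.2 (odd_T hq (by omega) hne)) (even_iff_two_dvd.2 hrT)
  have ho := order_eq hn hr hr2 (hrT.trans (T_dvd hq (by omega)))
  refine ⟨ho, ?_, hr2⟩
  have := Fact.mk hr
  have h1 : (q : ZMod r) ≠ 0 := by
    intro h
    rw [h, orderOf_zero] at ho
    omega
  have h2 : orderOf ((q : ℕ) : ZMod r) ∣ r - 1 := orderOf_dvd_of_pow_eq_one (ZMod.pow_card_sub_one_eq_one h1)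
  have h3 := hr.two_le
  have := Nat.le_of_dvd (by omega) h2
  omega

theorem not_dvd_q {q r : ℕ} (hn : n = 2 ^ k) (hn4 : 4 ≤ n) (hq : 2 ≤ q) (hr : r.Prime) (hrT : r ∣ T n q) : ¬ r ∣ q := by
  intro h
  have := Fact.mk hr
  have ho := (lt_of_dvd_T hn hn4 hq hr hrT).1
  rw [(ZMod.natCast_eq_zero_iff q r).2 h, orderOf_zero] at ho
  omega

/-- the isolated centralizers -/
theorem isoC (hL : HL L n p f) (hn : n = 2 ^ k) (hn4 : 4 ≤ n) (hG : Same G L) : IsoC G (T n (p ^ f)) := by
  have hY : Real (.C n) p f (Nat.card G) := hG.card ▸ hL.hY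
  have hq := hY.q_ge
  have hT := one_lt_T hn4 hq
  have hcard := card_eq hY (show 1 ≤ n by omega)
  refine ⟨hT.2, hcard ▸ Dvd.intro_left _ rfl, ?_, ?_⟩
  · rw [hcard, Nat.mul_div_cancel _ (by omega)]
    exact cop_T hn (by omega) hq
  · intro r y hr hrT hry
    have h1 := lt_of_dvd_T hn hn4 hq hr hrT
    refine (hL.lat r hr h1.1).card_cent hr hY.hp ?_ hG hry
    rintro rfl
    exact not_dvd_q hn hn4 hq hr hrT (dvd_pow_self r (by have := hY.hf; omega))

/-- **the frame** -/
theorem frame (hL : HL L n p f) (hn : n = 2 ^ k) (hn4 : 4 ≤ n) (hG : Same G L) :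
    ∃ (K : Subgroup G) (_ : K.Normal), (Nat.card K).Coprime (T n (p ^ f)) ∧
      (∀ t, t.Prime → T n (p ^ f) ∣ t ^ (Nat.card K).factorization t - 1) ∧
      (Nat.card G = Nat.card K * (T n (p ^ f) * (2 * n)) ∨
        ∃ N : Subgroup (G ⧸ K), N.Normal ∧ IsSimpleGroup N ∧ (¬ ∀ a b : N, a * b = b * a) ∧
          centralizer (N : Set (G ⧸ K)) = ⊥ ∧ T n (p ^ f) ∣ Nat.card N ∧ ∃ n', 1 < n' ∧ n' * N.index = 2 * n) := by
  have hY : Real (.C n) p f (Nat.card G) := hG.card ▸ hL.hY
  have hq := hY.q_ge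
  have hT := one_lt_T hn4 hq
  refine struct (isoC hL hn hn4 hG) (by omega) (fun r hr hrT => (lt_of_dvd_T hn hn4 hq hr hrT).2.1) ?_
  rw [card_eq hY (show 1 ≤ n by omega), Nat.mul_div_cancel _ (by omega)]
  exact modEq_T hn (by omega) hq

/-! ### the radical is nilpotent -/

/-- an element of order `r ∣ T` acts fixed point freely on `K` -/
theorem nilpotent {m : ℕ} (h : IsoC G m) {K : Subgroup G} [K.Normal] (hKm : (Nat.card K).Coprime m) :
    Group.IsNilpotent K := by
  obtain ⟨r, hr, hrm⟩ := Nat.exists_prime_and_dvd h.one.ne'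
  have := Fact.mk hr
  obtain ⟨y, hy⟩ := exists_prime_orderOf_dvd_card' (G := G) r (hrm.trans h.dvd)
  by_cases hK1 : Nat.card K = 1
  · have : Subsingleton K := (Nat.card_eq_one_iff_unique.1 hK1).1
    infer_instance
  let φ : K ≃* K := (MulAut.conjNormal y : MulAut K)
  have hfix : ∀ x : K, φ x = x → x = 1 := by
    intro x hx
    have h1 : y * (x : G) * y⁻¹ = x := congrArg Subtype.val hx
    have h2 : Commute y (x : G) := mul_inv_eq_iff_eq_mul.1 h1
    have h3 : (x : G) ∈ centralizer ({y} : Set G) := mem_cent'.2 h2.symm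
    have h4 : orderOf (x : G) ∣ m := by
      rw [← h.cent r y hr hrm (by rw [hy])]
      exact (Subgroup.orderOf_mk (x : G) h3) ▸ orderOf_dvd_natCard _
    have h5 : orderOf (x : G) ∣ Nat.card K := by
      rw [Subgroup.orderOf_coe]; exact orderOf_dvd_natCard x
    have h6 : orderOf (x : G) ∣ 1 := by rw [← hKm]; exact Nat.dvd_gcd h5 h4
    have h7 := orderOf_eq_one_iff.1 (Nat.dvd_one.1 h6)
    exact Subtype.ext h7
  refine Cfsg.Agent.S0033.result φ ?_ r hr ?_
  · intro x hx
    exact hfix x hx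
  · have h1 : φ ^ r = 1 := by
      have h2 : φ ^ r = MulAut.conjNormal (y ^ r) := (map_pow (MulAut.conjNormal : G →* MulAut K) y r).symm
      rw [h2, ← hy, pow_orderOf_eq_one, map_one]
    rcases (Nat.dvd_prime hr).1 (orderOf_dvd_of_pow_eq_one h1) with h2 | h2
    · exfalso
      apply hK1
      rw [orderOf_eq_one_iff] at h2
      rw [Nat.card_eq_one_iff_unique]
      refine ⟨⟨fun a b => ?_⟩, ⟨1⟩⟩
      rw [hfix a (by rw [h2]; rfl), hfix b (by rw [h2]; rfl)]
    · exact h2

/-- **the Sylow subgroups of the radical are trivial**, if the Sylow subgroup of `G` is small -/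
theorem not_dvd_of_small (hL : HL L n p f) (hn : n = 2 ^ k) (hn4 : 4 ≤ n) (hG : Same G L) {K : Subgroup G} [K.Normal]
    (hKm : (Nat.card K).Coprime (T n (p ^ f))) {v : ℕ} (hv : v.Prime)
    (hlt : 2 * P v (Nat.card G) ≤ (p ^ f) ^ (2 * n - 1)) : ¬ v ∣ Nat.card K := by
  intro hvK
  have hI := isoC hL hn hn4 hG
  have hnil : Group.IsNilpotent K := nilpotent hI hKm
  have := Fact.mk hv
  obtain ⟨V⟩ : Nonempty (Sylow v K) := inferInstance
  have hVn : (V : Subgroup K).Normal := by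
    have := (Group.isNilpotent_of_finite_tfae (G := K)).out 0 3
    exact (this.1 hnil) v ‹_› V
  have hVc : (V : Subgroup K).Characteristic := Sylow.characteristic_of_normal V hVn
  -- the subgroup of `G`
  obtain ⟨W, hW⟩ : ∃ W : Subgroup G, W = (V : Subgroup K).map K.subtype := ⟨_, rfl⟩
  have hWn : W.Normal := by rw [hW]; exact ConjAct.normal_of_characteristic_of_normal
  have hWcard : Nat.card W = Nat.card V := by
    rw [hW]
    exact Subgroup.card_map_of_injective K.subtype_injective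
  have hWle : Nat.card W ≤ P v (Nat.card G) := by
    rw [hWcard]
    have h1 : Nat.card V = v ^ (Nat.card K).factorization v := V.card_eq_multiplicity
    rw [h1]
    exact P_mono hv Nat.card_pos.ne' (Subgroup.card_subgroup_dvd_card K)
  have hW1 : W ≠ ⊥ := by
    intro h
    have h1 : Nat.card V = 1 := by rw [← hWcard, h]; simp
    have h2 : Nat.card V = v ^ (Nat.card K).factorization v := V.card_eq_multiplicity
    rw [h1] at h2
    have h3 := (hv.factorization_pos_of_dvd Nat.card_pos.ne' hvK).ne'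
    have h4 := Nat.one_lt_pow h3 hv.one_lt
    omega
  obtain ⟨⟨x, hxW⟩, hx1⟩ := Subgroup.ne_bot_iff_exists_ne_one.1 hW1
  have hx1' : (x : G) ≠ 1 := fun h => hx1 (Subtype.ext h)
  -- the index of the centralizer of `x`
  have hlow : (p ^ f) ^ (2 * n - 1) ≤ 2 * (centralizer ({(x : G)} : Set G)).index := by
    have h1 := hG.mem (x : G)
    obtain ⟨s, hs⟩ := h1
    have h2 : (centralizer ({s} : Set L)).index = (centralizer ({(x : G)} : Set G)).index := by
      have h3 := Subgroup.card_mul_index (centralizer ({s} : Set L))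
      have h4 := Subgroup.card_mul_index (centralizer ({(x : G)} : Set G))
      have h5 : Nat.card (centralizer ({s} : Set L)) = Nat.card (centralizer ({(x : G)} : Set G)) := hs
      rw [h5, ← hG.card, ← h4] at h3
      exact Nat.eq_of_mul_eq_mul_left Nat.card_pos h3
    rw [← h2]
    refine hL.ind _ ?_
    intro h3
    have h4 : centralizer ({(x : G)} : Set G) = ⊤ := by
      rw [← Subgroup.index_eq_one, ← h2, h3, Subgroup.index_top]
    obtain ⟨r, hr, hrm⟩ := Nat.exists_prime_and_dvd hI.one.ne'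
    have := Fact.mk hr
    obtain ⟨y, hy⟩ := exists_prime_orderOf_dvd_card' (G := G) r (hrm.trans hI.dvd)
    have h5 : Commute (x : G) y := (mem_cent'.1 (h4 ▸ Subgroup.mem_top y)).symm
    have h6 : (x : G) ∈ centralizer ({y} : Set G) := mem_cent'.2 h5
    have h7 : orderOf (x : G) ∣ T n (p ^ f) := by
      rw [← hI.cent r y hr hrm (by rw [hy])]
      exact (Subgroup.orderOf_mk (x : G) h6) ▸ orderOf_dvd_natCard _
    have hxK : (x : G) ∈ K := by
      have h8 : W ≤ K := by rw [hW]; exact Subgroup.map_subtype_le _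
      exact h8 hxW
    have h8 : orderOf (x : G) ∣ Nat.card K := by
      have := orderOf_dvd_natCard (⟨(x : G), hxK⟩ : K)
      rwa [Subgroup.orderOf_mk] at this
    have h9 : orderOf (x : G) ∣ 1 := by rw [← hKm]; exact Nat.dvd_gcd h8 h7
    exact hx1' (orderOf_eq_one_iff.1 (Nat.dvd_one.1 h9))
  -- the class of `x` is contained in `W`
  have hup : (centralizer ({(x : G)} : Set G)).index < Nat.card W := by
    have hinj : Function.Injective (fun a : G ⧸ centralizer ({(x : G)} : Set G) =>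
        (⟨a.out * (x : G) * a.out⁻¹, hWn.conj_mem _ hxW _⟩ : W)) := by
      intro a b hab
      have h1 : a.out * (x : G) * a.out⁻¹ = b.out * (x : G) * b.out⁻¹ := congrArg Subtype.val hab
      rw [← Quotient.out_eq' a, ← Quotient.out_eq' b]
      refine QuotientGroup.eq.2 (mem_cent'.2 ?_)
      have h2 : b.out⁻¹ * (a.out * (x : G) * a.out⁻¹) * b.out = x := by rw [h1]; group
      have h3 : (a.out⁻¹ * b.out) * (x : G) = (x : G) * (a.out⁻¹ * b.out) := by
        calc (a.out⁻¹ * b.out) * (x : G) = (a.out⁻¹ * b.out) * (b.out⁻¹ * (a.out * (x : G) * a.out⁻¹) * b.out) := by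
              rw [h2]
          _ = _ := by group
      exact h3
    rw [Subgroup.index_eq_card]
    have h1 := Nat.card_le_card_of_injective _ hinj
    refine lt_of_le_of_ne h1 fun h2 => ?_
    have h3 := (Nat.bijective_iff_injective_and_card _).2 ⟨hinj, h2⟩
    obtain ⟨a, ha⟩ := h3.2 1
    have h4 : a.out * (x : G) * a.out⁻¹ = 1 := congrArg Subtype.val ha
    apply hx1'
    calc (x : G) = a.out⁻¹ * (a.out * (x : G) * a.out⁻¹) * a.out := by group
      _ = 1 := by rw [h4]; group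
  omega

end Cfsg.Agent.H365.CS
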