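import Mathlib
import Cfsg.Agent.H365.CS.TorC
import Cfsg.Agent.H365.CS.AltC
import Cfsg.Agent.H365.CS.SameC
import Cfsg.Agent.H902.Names
import Cfsg.Agent.H402.AltGrp

/-!
# A group with the order and the class sizes of `PSp(2n,q)`, `PΩ(2n+1,q)`, `n ≥ 4` a power of two, is simple (helper365)
-/

set_option autoImplicit false

namespace Cfsg.Agent.H365.CS

open Finset Cfsg Cfsg.Agent.H902 Cfsg.Agent.H902.Art Cfsg.Agent.OrdDiv Cfsg.Agent.H364 Cfsg.Agent.H364.SpVal
open Cfsg.Agent.H365.TorSp Subgroup Cfsg.Agent.H431.CS Cfsg.Agent.H812.CS Cfsg.Agent.H370.AAM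

universe u v

/-- the first case of the structure theorem is impossible -/
theorem not_frob {n k p f M κ : ℕ} (hY : Art.Real (.C n) p f M) (hn : n = 2 ^ k) (hn4 : 4 ≤ n)
    (hκ : ∀ v : ℕ, v.Prime → v ≠ p → v ∣ κ → (p ^ f = 3 ∧ v = 2) ∨ (p ^ f = 2 ∧ v = 3))
    (h : M = κ * (T n (p ^ f) * (2 * n))) : False := by
  have hq := hY.q_ge
  have hT2 := le_T hq (show 1 ≤ 2 by norm_num)
  have hT21 : T 2 (p ^ f) ≠ 1 := by
    have : 2 ^ 2 ≤ (p ^ f) ^ 2 := Nat.pow_le_pow_left hq 2
    omega
  obtain ⟨v, hv, hvT⟩ := Nat.exists_prime_and_dvd hT21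
  have hv2 : v ≠ 2 := by
    rintro rfl
    exact (Nat.not_even_iff_odd.2 (odd_T hq (by norm_num) even_two)) (even_iff_two_dvd.2 hvT)
  have hv0 := hvT.trans (T_dvd hq (by norm_num))
  have ho := order_eq (n := 2) (k := 1) (by norm_num) hv hv2 hv0
  have := Fact.mk hv
  have hvq : ¬ v ∣ p ^ f := by
    intro h1
    rw [(ZMod.natCast_eq_zero_iff _ v).2 h1, orderOf_zero] at ho
    omega
  have hvp : v ≠ p := by
    rintro rfl
    exact hvq (dvd_pow_self v (by have := hY.hf; omega))
  have hv5 : 5 ≤ v := by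
    have h1 : (((p ^ f : ℕ)) : ZMod v) ≠ 0 := fun h1 => hvq ((ZMod.natCast_eq_zero_iff _ v).1 h1)
    have h2 : orderOf (((p ^ f : ℕ)) : ZMod v) ∣ v - 1 := orderOf_dvd_of_pow_eq_one (ZMod.pow_card_sub_one_eq_one h1)
    rw [ho] at h2
    have h3 := hv.two_le
    have := Nat.le_of_dvd (by omega) h2
    omega
  have hvM : v ∣ M := by
    rw [card_eq hY (by omega)]
    have h2 : (p ^ f) ^ (2 * (1 + 1)) - 1 ∣ AA (n - 1) (p ^ f) := by
      rw [AA]
      exact Finset.dvd_prod_of_mem (fun i => (p ^ f) ^ (2 * (i + 1)) - 1) (Finset.mem_range.2 (show 1 < n - 1 by omega))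
    have h1 : v ∣ (p ^ f) ^ (2 * (1 + 1)) - 1 := by
      have h3 : (p ^ f) ^ (2 * (1 + 1)) - 1 = ((p ^ f) ^ 2 - 1) * ((p ^ f) ^ 2 + 1) := by
        have h6 : 1 ≤ (p ^ f) ^ 2 := Nat.one_le_pow _ _ (by omega)
        have h7 : 1 ≤ (p ^ f) ^ (2 * (1 + 1)) := Nat.one_le_pow _ _ (by omega)
        zify [h6, h7]; ring
      rw [h3]
      exact hv0.mul_left _
    exact (((h1.trans h2).mul_left _).mul_right _).mul_right _
  rw [h] at hvM
  rcases hv.dvd_mul.1 hvM with h1 | h1
  · rcases hκ v hv hvp h1 with h2 | h2 <;> omega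
  · rcases hv.dvd_mul.1 h1 with h2 | h2
    · have h3 := order_eq hn hv hv2 (h2.trans (T_dvd hq (by omega)))
      omega
    · have h3 : v ∣ 2 ^ (k + 1) := by rw [hn] at h2; rw [pow_succ, mul_comm]; exact h2
      exact hv2 ((Nat.prime_dvd_prime_iff_eq hv Nat.prime_two).1 (hv.dvd_of_dvd_pow h3))

/-- **Groups with the order and the class sizes of `L`** -/
theorem simple_of {G : Type u} [Group G] [Finite G] {L : Type v} [Group L] [Finite L] {n k p f : ℕ}
    (hL : HL L n p f) (hn : n = 2 ^ k) (hn4 : 4 ≤ n) (h : Same G L) (TT : OrderTable.{u})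
    (hk : ∀ (S : Type u) [Group S] [Finite S] [IsSimpleGroup S], IsKnownSimple' S) : IsSimpleGroup G := by
  have hY : Art.Real (.C n) p f (Nat.card G) := h.card ▸ hL.hY
  have hq := hY.q_ge
  have hI := isoC hL hn hn4 h
  obtain ⟨K, hKn, hKm, hparts, hcases⟩ := frame hL hn hn4 h
  have hκ : ∀ v : ℕ, v.Prime → v ≠ p → v ∣ Nat.card K → (p ^ f = 3 ∧ v = 2) ∨ (p ^ f = 2 ∧ v = 3) := by
    intro v hv hvp hvK
    by_contra hcon
    exact not_dvd_of_small hL hn hn4 h hKm hv (mu hY hn4 hv hvp (fun h1 => hcon (Or.inl h1))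
      (fun h1 => hcon (Or.inr h1))) hvK
  rcases hcases with hA | ⟨N, hNn, hNs, hNna, hNc, hNT, n', hn', hidx⟩
  · exact (not_frob hY hn hn4 hκ hA).elim
  have hfac : Nat.card K * (Nat.card N * N.index) = Nat.card G := by
    rw [Subgroup.card_mul_index N, ← Subgroup.index_eq_card, Subgroup.card_mul_index K]
  have hNG : Nat.card N ∣ Nat.card G := ⟨N.index * Nat.card K, by rw [← hfac]; ring⟩
  suffices key : Nat.card N = Nat.card G by
    rw [← key] at hfac
    have h1 : Nat.card K * N.index = 1 := by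
      have h2 : Nat.card N * (Nat.card K * N.index) = Nat.card N * 1 := by
        calc Nat.card N * (Nat.card K * N.index) = Nat.card K * (Nat.card N * N.index) := by ring
          _ = Nat.card N * 1 := by rw [hfac, mul_one]
      exact Nat.eq_of_mul_eq_mul_left Nat.card_pos h2
    have hK1 : Nat.card K = 1 := Nat.eq_one_of_mul_eq_one_right h1
    have hi1 : N.index = 1 := Nat.eq_one_of_mul_eq_one_left h1
    have hNtop : N = ⊤ := Subgroup.index_eq_one.1 hi1
    subst hNtop
    have eN : (⊤ : Subgroup (G ⧸ K)) ≃* G ⧸ K := Subgroup.topEquiv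
    have hKbot : K = ⊥ := Subgroup.card_eq_one.1 hK1
    subst hKbot
    have e : (⊤ : Subgroup (G ⧸ (⊥ : Subgroup G))) ≃* G := eN.trans QuotientGroup.quotientBot
    have : Nontrivial G := e.symm.toEquiv.nontrivial
    exact IsSimpleGroup.isSimpleGroup_of_surjective e.toMonoidHom e.surjective
  rcases Names.exists_nam TT (hk N) hNna with ⟨m, hm, hr', hc⟩ | ⟨g, X, w, e, hg, hr', hX⟩ | ⟨x, hx, hr', hc⟩
  · -- alternating
    exfalso
    refine alt_false hY hn hn4 hc hNG hNT fun r hr hrT => ?_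
    by_contra hcon
    obtain ⟨ea⟩ := hr'
    have hr1 := prime_T hn hn4 hq hr hrT
    obtain ⟨g, hg⟩ := Cfsg.Agent.H402.AltG.exists_two (m := m) hr Nat.prime_three (by omega) hr1.2.2 (by norm_num)
      (by omega)
    have h3 : ¬ 3 ∣ T n (p ^ f) := fun h3 => by
      have := (prime_T hn hn4 hq Nat.prime_three h3).2.1
      omega
    refine noEdge_quotient K (hI.noEdge hr hrT h3) ((ea.symm g : N) : G ⧸ K) ?_
    rw [Subgroup.orderOf_coe, MulEquiv.orderOf_eq, hg]
  · by_cases hwp : w = p
    · subst hwp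
      exact same_case hY hX hn hn4 hfac hn' hidx hNT hparts hκ
    · exfalso
      have hi : N.index ∣ 2 * n := Dvd.intro_left _ hidx
      by_cases h16 : 16 ≤ n
      · exact cross_large hY hX hwp h16 hfac hi hκ
      have hn48 : n = 4 ∨ n = 8 := by
        have h1 : k = 2 ∨ k = 3 := by
          have : k < 4 := by
            by_contra h1
            have : 2 ^ 4 ≤ 2 ^ k := Nat.pow_le_pow_right (by norm_num) (by omega)
            omega
          have : ¬ k < 2 := by
            intro h1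
            have h2 : k = 0 ∨ k = 1 := by omega
            rcases h2 with rfl | rfl <;> norm_num at hn <;> omega
          omega
        rcases h1 with rfl | rfl
        · left; rw [hn]; norm_num
        · right; rw [hn]; norm_num
      rcases hn48 with h4 | h8
      · subst h4
        have hκ' := kernel_four hY (Subgroup.card_subgroup_dvd_card K) hκ hparts
        have hi4 : N.index ∣ 4 := by
          have h1 : N.index ∣ 2 ^ 3 := hi
          obtain ⟨j, hj, h2⟩ := (Nat.dvd_prime_pow Nat.prime_two).1 h1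
          have h3 : N.index ≤ 4 := by
            have : 2 * N.index ≤ n' * N.index := Nat.mul_le_mul_right _ (by omega)
            omega
          have h4 : j ≤ 2 := by
            by_contra h4
            have : 2 ^ 3 ≤ 2 ^ j := Nat.pow_le_pow_right (by norm_num) (by omega)
            omega
          rw [h2]
          exact pow_dvd_pow 2 h4
        by_cases hp2 : p = 2
        · subst hp2
          refine cross_four hY hX hwp hfac (fun v hv hv2 h1 => ?_) hκ'
          exact hv2 ((Nat.prime_dvd_prime_iff_eq hv Nat.prime_two).1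
            (hv.dvd_of_dvd_pow (show v ∣ 2 ^ 2 from h1.trans hi4)))
        · exact cross_four_odd hY hX hwp hp2 hfac hi4 hκ'
      · subst h8
        exact cross_eight' hY hX hwp hfac hi hκ
  · -- sporadic
    exact (spor_false hY hn hn4 hx (hc ▸ hNG) (hc ▸ hNT)).elim

end Cfsg.Agent.H365.CS
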