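import Mathlib
import Cfsg.Agent.H365.CS.MainC
import Cfsg.Agent.H510.CS.PSpLat
import Cfsg.Agent.S2141
import Cfsg.Agent.S2142
import Cfsg.Agent.S2143
import Cfsg.Agent.S2144
import Cfsg.Agent.OrdDiv.Table
import Cfsg.Agent.S0000

/-!
# S3677, rows `PSp(2n,q)` and `PΩ(2n+1,q)`, `n ≥ 4` a power of two (helper365)
-/

set_option autoImplicit false

namespace Cfsg.Agent.H365.CS

open Finset Cfsg Cfsg.Agent.H902 Cfsg.Agent.H902.Art Cfsg.Agent.OrdDiv Cfsg.Agent.H364 Cfsg.Agent.H364.SpVal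
open Cfsg.Agent.H365.TorSp Subgroup Cfsg.Agent.H431.CS Cfsg.Agent.H812.CS Cfsg.Agent.H370.AAM

universe u v

variable {F : Type v} [Field F] [Fintype F] {n k p f : ℕ}

/-- the order of `PSp(2n,q)`, any universe -/
theorem psp_real (hp : p.Prime) (hf : 1 ≤ f) (hF : Fintype.card F = p ^ f) (hn4 : 4 ≤ n) :
    Art.Real (.C n) p f (Nat.card (PSp n F)) := by
  refine ⟨hp, hf, ⟨by omega, fun h => by omega⟩, ?_⟩
  have h1 := S0245.result (F := F) hF n
  have h2 := S0246.result (F := F) hF n (by omega)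
  have h3 := Subgroup.card_eq_card_quotient_mul_card_subgroup
    (Subgroup.center (Matrix.symplecticGroup (Fin n) F))
  rw [h1, h2] at h3
  change Nat.gcd 2 (p ^ f - 1) * Nat.card (PSp n F) = _
  rw [mul_comm]
  exact h3.symm

theorem odd_real (hp : p.Prime) (hf : 1 ≤ f) (hF : Fintype.card F = p ^ f) (hn4 : 4 ≤ n) (ho : Odd (p ^ f)) :
    Art.Real (.C n) p f (Nat.card (POmega F (quadFormOdd n F))) := by
  refine ⟨hp, hf, ⟨by omega, fun h => by omega⟩, ?_⟩
  have h := S0292.result (F := F) hF ho n (by omega)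
  have h2 : Nat.gcd 2 (p ^ f - 1) = 2 := Nat.gcd_eq_left (by obtain ⟨c, hc⟩ := ho; exact ⟨c, by omega⟩)
  change Nat.gcd 2 (p ^ f - 1) * Nat.card (POmega F (quadFormOdd n F)) = _
  rw [h2, h]
  rfl

theorem le_div {q n : ℕ} (hq : 2 ≤ q) (hn : 1 ≤ n) : q ^ (2 * n - 1) ≤ (q ^ (2 * n) - 1) / (q - 1) := by
  rw [Nat.le_div_iff_mul_le (by omega)]
  have h1 : q ^ (2 * n) = q ^ (2 * n - 1) * q := by rw [← pow_succ]; congr 1; omega
  have h2 : 1 ≤ q ^ (2 * n - 1) := Nat.one_le_pow _ _ (by omega)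
  rw [h1, Nat.mul_sub, mul_one]
  omega

/-- the hypotheses for `PSp(2n,q)` -/
theorem hl_psp (hp : p.Prime) (hf : 1 ≤ f) (hF : Fintype.card F = p ^ f) (hn4 : 4 ≤ n) : HL (PSp n F) n p f where
  hY := psp_real hp hf hF hn4
  lat := fun _ hr ho => H510.CS.lat_psp_top hp hf hF (by omega) hr ho
  ind := by
    intro H hH
    have hq : 2 ≤ p ^ f := hp.two_le.trans (Nat.le_self_pow (by omega) p)
    by_cases hq2 : p ^ f = 2
    · have h1 := (Cfsg.Agent.S2142.result (F := F) (hF.trans hq2) n (by omega)).1 H hH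
      rw [hq2]
      have h2 : 2 ^ (2 * n - 1) ≤ 2 * (2 ^ (n - 1) * (2 ^ n - 1)) := by
        obtain ⟨m, rfl⟩ : ∃ m, n = m + 1 := ⟨n - 1, by omega⟩
        rw [Nat.add_sub_cancel, show 2 * (m + 1) - 1 = 2 * m + 1 by omega]
        have h3 : 2 ^ (2 * m + 1) = 2 * (2 ^ m * 2 ^ m) := by rw [← pow_add, ← pow_succ']; congr 1; ring
        rw [h3]
        apply Nat.mul_le_mul_left
        apply Nat.mul_le_mul_left
        have h4 : 1 ≤ 2 ^ m := Nat.one_le_two_pow
        rw [pow_succ]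
        omega
      omega
    · have h1 := (Cfsg.Agent.S2141.result (F := F) hF n (by omega) (by omega) (by omega)).1 H hH
      have h2 := le_div (n := n) hq (by omega)
      omega

/-- the hypotheses for `PΩ(2n+1,q)`, from the centralizer orders -/
theorem hl_odd (hp : p.Prime) (hf : 1 ≤ f) (hF : Fintype.card F = p ^ f) (hn4 : 4 ≤ n) (ho : Odd (p ^ f))
    (hlat : ∀ r : ℕ, r.Prime → orderOf (((p ^ f : ℕ)) : ZMod r) = 2 * n →
      Lat (POmega F (quadFormOdd n F)) p r (((p ^ f) ^ n + 1) / Nat.gcd 2 (p ^ f - 1))) :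
    HL (POmega F (quadFormOdd n F)) n p f where
  hY := odd_real hp hf hF hn4 ho
  lat := hlat
  ind := by
    intro H hH
    have hq : 2 ≤ p ^ f := hp.two_le.trans (Nat.le_self_pow (by omega) p)
    by_cases hq3 : p ^ f = 3
    · have h1 := (Cfsg.Agent.S2144.result (F := F) (hF.trans hq3) n (by omega)).1 H hH
      rw [hq3]
      obtain ⟨m, rfl⟩ : ∃ m, n = m + 1 := ⟨n - 1, by omega⟩
      rw [show 2 * (m + 1) - 1 = m + 1 + m by omega]
      have h2 : 2 ∣ 3 ^ (m + 1) * (3 ^ (m + 1) - 1) := by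
        obtain ⟨c, hc⟩ := (show Odd 3 by decide).pow (n := m + 1)
        exact Dvd.dvd.mul_left ⟨c, by omega⟩ _
      have h3 := Nat.mul_div_cancel' h2
      have h4 : 3 ^ (m + 1 + m) ≤ 3 ^ (m + 1) * (3 ^ (m + 1) - 1) := by
        rw [pow_add 3 (m + 1) m]
        apply Nat.mul_le_mul_left
        have h4 : 1 ≤ 3 ^ m := Nat.one_le_pow _ _ (by norm_num)
        rw [pow_succ]
        omega
      omega
    · have hq5 : 5 ≤ p ^ f := by obtain ⟨c, hc⟩ := ho; omega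
      have h1 := (Cfsg.Agent.S2143.result (F := F) hF ho hq5 n (by omega)).1 H hH
      have h2 := le_div (n := n) hq (by omega)
      omega

theorem exists_pp' : ∃ p f : ℕ, p.Prime ∧ 1 ≤ f ∧ Fintype.card F = p ^ f := by
  obtain ⟨p, f, hp, hf, h⟩ := (isPrimePow_nat_iff _).1 (Fintype.isPrimePow_card_of_field (α := F))
  exact ⟨p, f, hp, hf, h.symm⟩

/-- **Row `PSp(2n,q)`, `n ≥ 4` a power of two.** -/
theorem row_psp_two_pow {G : Type u} [Group G] [Finite G] (hn : n = 2 ^ k) (hn4 : 4 ≤ n) (h : Same G (PSp n F)) :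
    IsSimpleGroup G := by
  obtain ⟨p, f, hp, hf, hF⟩ := exists_pp' (F := F)
  exact simple_of (hl_psp hp hf hF hn4) hn hn4 h Cfsg.Agent.OrdDiv.table
    (fun S _ _ _ => Cfsg.Agent.S0000.result (G := S))

/-- **Row `PΩ(2n+1,q)`, `n ≥ 4` a power of two**, from the centralizer orders. -/
theorem row_odd_two_pow' {G : Type u} [Group G] [Finite G] (hp : p.Prime) (hf : 1 ≤ f) (hF : Fintype.card F = p ^ f)
    (hn : n = 2 ^ k) (hn4 : 4 ≤ n) (ho : Odd (p ^ f))
    (hlat : ∀ r : ℕ, r.Prime → orderOf (((p ^ f : ℕ)) : ZMod r) = 2 * n →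
      Lat (POmega F (quadFormOdd n F)) p r (((p ^ f) ^ n + 1) / Nat.gcd 2 (p ^ f - 1)))
    (h : Same G (POmega F (quadFormOdd n F))) : IsSimpleGroup G :=
  simple_of (hl_odd hp hf hF hn4 ho hlat) hn hn4 h Cfsg.Agent.OrdDiv.table
    (fun S _ _ _ => Cfsg.Agent.S0000.result (G := S))

end Cfsg.Agent.H365.CS
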